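import Cfsg.Agent.Lib.Chev.TwGen

/-!
# Automorphisms of twisted groups: the rank one subgroups, for a general system of classes
-/

set_option autoImplicit false
set_option linter.unusedSectionVars false
set_option linter.unusedVariables false
set_option linter.unnecessarySimpa false

namespace Cfsg.Agent.Lib.Chev.TwGen

open Cfsg.Lie Matrix Equiv Cfsg.Agent.Lib.Chev
open Cfsg.Agent.Lib.Chev.Full (cellS)
open Cfsg.Agent.Lib.BNPair
open Cfsg.Agent.Lib.ChevFix2 (conj_U_of_borel)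
open scoped Pointwise

variable {T : Tabs} {X : Extra} {R : RootTab} {D : ChevalleyDatum} {F : Type*} [Field F]
variable {hF : Full T X R D} {τ : Tw hF F} (A : TwG τ)

omit [Field F] in
/-- Roots sent to negative roots. -/
theorem conj_UL_mem_V [Field F] (hF : Full T X R D) {J : Set ℕ} {s : ↥(D.monomialSubgroup F)}
    (hneg : ∀ r (hr : r < D.nroots), LQ D J r → ((hF.rhoN F s ⟨r, hr⟩ : Fin D.nroots) : ℕ) < R.N)
    {y : GL D.Idx F} (hy : y ∈ UL D F J) : s.1 * y * s.1⁻¹ ∈ D.negUnipotent F := by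
  unfold UL Full.rootClosure at hy
  induction hy using Subgroup.closure_induction with
  | mem x hx =>
    obtain ⟨r, t, hr, hg⟩ := hx
    rw [hF.c.eq_xG hg]
    obtain ⟨u, hu⟩ := hF.rhoN_spec_apply s ⟨r, hr.1.1⟩
    have h1 := hu t
    simp only at h1
    rw [h1]
    exact hF.xG_mem_V (hneg r hr.1.1 hr) _
  | one => simp [Subgroup.one_mem]
  | mul a b _ _ ha hb =>
    have e : s.1 * (a * b) * s.1⁻¹ = (s.1 * a * s.1⁻¹) * (s.1 * b * s.1⁻¹) := by group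
    rw [e]
    exact Subgroup.mul_mem _ ha hb
  | inv a _ ha =>
    have e : s.1 * a⁻¹ * s.1⁻¹ = (s.1 * a * s.1⁻¹)⁻¹ := by group
    rw [e]
    exact Subgroup.inv_mem _ ha

omit [Field F] in
/-- Elements of `N` send root closures to root closures. -/
theorem conj_rootClosure [Field F] (hF : Full T X R D) {Q Q' : ℕ → Prop} (hQ : ∀ r, Q r → r < D.nroots) {s : ↥(D.monomialSubgroup F)}
    (hL : ∀ r (hr : r < D.nroots), Q r → Q' ((hF.rhoN F s ⟨r, hr⟩ : Fin D.nroots) : ℕ))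
    {y : GL D.Idx F} (hy : y ∈ Full.rootClosure D F Q) : s.1 * y * s.1⁻¹ ∈ Full.rootClosure D F Q' := by
  unfold Full.rootClosure at hy
  induction hy using Subgroup.closure_induction with
  | mem x hx =>
    obtain ⟨r, t, hr, hg⟩ := hx
    rw [hF.c.eq_xG hg]
    obtain ⟨u, hu⟩ := hF.rhoN_spec_apply s ⟨r, hQ r hr⟩
    have h1 := hu t
    simp only at h1
    rw [h1]
    exact hF.xG_mem_rootClosure (hL r (hQ r hr) hr) _
  | one => simp [Subgroup.one_mem]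
  | mul a b _ _ ha hb =>
    have e : s.1 * (a * b) * s.1⁻¹ = (s.1 * a * s.1⁻¹) * (s.1 * b * s.1⁻¹) := by group
    rw [e]
    exact Subgroup.mul_mem _ ha hb
  | inv a _ ha =>
    have e : s.1 * a⁻¹ * s.1⁻¹ = (s.1 * a * s.1⁻¹)⁻¹ := by group
    rw [e]
    exact Subgroup.inv_mem _ ha

variable [Fintype F]

include A

theorem nC_neg_L {i : ℕ} (hi : i < D.rank) (r : ℕ) (hr : r < D.nroots) (hL : LQ D (A.cls i) r) :
    ((hF.rhoN F (A.nC i) ⟨r, hr⟩ : Fin D.nroots) : ℕ) < R.N :=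
  hF.neg_on_LQ (hF.rhoN_mem_Wk (A.nC i)) (A.nC_neg i hi) r hr hL

theorem nC_conj_mem_V {i : ℕ} (hi : i < D.rank) {x : GL D.Idx F} (hx : x ∈ UL D F (A.cls i)) :
    (A.nC i).1 * x * (A.nC i).1⁻¹ ∈ D.negUnipotent F :=
  conj_UL_mem_V hF (fun r hr hL => nC_neg_L A hi r hr hL) hx

/-- The normal form of a fixed element of a cell. -/
theorem exists_of_cell {i : ℕ} (hi : i < D.rank) {v : GL D.Idx F} (hvG : v ∈ A.G1)
    (hc : v ∈ cellS D F (A.nC i).1) :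
    ∃ g ∈ D.borelSubgroup F, ∃ x ∈ UL D F (A.cls i), τ.s x = x ∧ v = g * (A.nC i).1 * x := by
  have hsW := A.nC_W i hi
  have hpos1 : ∀ (m : ℕ) (hm : m < D.rank), m ∈ A.cls i →
      R.N ≤ ((hF.rhoN F (1 : ↥(D.monomialSubgroup F)) ⟨D.simple m, hF.simple_lt hm⟩ : Fin D.nroots) : ℕ) := by
    intro m hm _
    rw [map_one]
    exact hF.simple_ge hm
  have hs1 : τ.s ((1 : ↥(D.monomialSubgroup F)) : GL D.Idx F) = ((1 : ↥(D.monomialSubgroup F)) : GL D.Idx F) := τ.s_one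
  have hc' : v ∈ cellS D F (((1 : ↥(D.monomialSubgroup F)) : GL D.Idx F) * ((A.nC i : ↥(D.monomialSubgroup F)) : GL D.Idx F)) := by
    simpa using hc
  obtain ⟨g, hg, x, hx, e, hgf, hxf⟩ := τ.fix_step (A.stable i hi) hsW (A.nC_neg i hi) hpos1 hs1
    (A.G1_fix _ (A.nC_mem i hi)) hc' (A.G1_fix _ hvG)
  have hgB : g ∈ D.borelSubgroup F := by
    obtain ⟨b₁, h₁, b₂, h₂, rfl⟩ := hg
    have : b₁ * ((1 : ↥(D.monomialSubgroup F)) : GL D.Idx F) * b₂ = b₁ * b₂ := by simp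
    rw [this]
    exact Subgroup.mul_mem _ h₁ h₂
  exact ⟨g, hgB, x, hx, hxf, e⟩

/-- The conjugates of the elements of `U_i` by `n_i` are in the cell of `n_i`. -/
theorem conj_mem_cell (hA : GHyp A) {i : ℕ} (hi : i < D.rank) {y : GL D.Idx F} (hy : y ∈ UL D F (A.cls i))
    (hys : τ.s y = y) (hy1 : y ≠ 1) : (A.nC i).1 * y * (A.nC i).1⁻¹ ∈ cellS D F (A.nC i).1 := by
  have hyG : y ∈ A.G1 := A.UL_fix i hi y hy hys
  have hyB : y ∈ D.borelSubgroup F := hF.c.posUnipotent_le_borel (hF.UL_le_U _ hy)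
  have h1 : (⟨y, hyG⟩ : ↥A.G1) ∈ (bnP hA).parabolic {sE A hi} :=
    (mem_parabolic_iff_cell A hA hi _).2 (Or.inl hyB)
  have hcell : (A.nC i).1 ∈ cellS D F (A.nC i).1 :=
    ⟨1, Subgroup.one_mem _, 1, Subgroup.one_mem _, by simp⟩
  have h2 : sE A hi ∈ (bnP hA).parabolic {sE A hi} :=
    (mem_parabolic_iff_cell A hA hi _).2 (Or.inr hcell)
  have h3 := Subgroup.mul_mem _ (Subgroup.mul_mem _ h2 h1) (Subgroup.inv_mem _ h2)
  rcases (mem_parabolic_iff_cell A hA hi _).1 h3 with h4 | h4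
  · exfalso
    apply hy1
    apply conj_neg_of A (A.nC i) (A.nC_mem i hi) hi (A.nC_neg i hi i hi (A.self_mem i hi)) hy
    exact h4
  · exact h4

/-- Each nontrivial element of `U_i` arises. -/
theorem exists_conj_eq (hA : GHyp A) {i : ℕ} (hi : i < D.rank) {x : GL D.Idx F} (hx : x ∈ UL D F (A.cls i))
    (hxs : τ.s x = x) (hx1 : x ≠ 1) :
    ∃ y ∈ UL D F (A.cls i), τ.s y = y ∧ ∃ g ∈ D.borelSubgroup F, (A.nC i).1 * y * (A.nC i).1⁻¹ = g * (A.nC i).1 * x := by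
  classical
  let Y := {y : ↥A.G1 // y.1 ∈ UL D F (A.cls i) ∧ τ.s y.1 = y.1 ∧ y.1 ≠ 1}
  have hex : ∀ y : Y, ∃ g ∈ D.borelSubgroup F, ∃ z ∈ UL D F (A.cls i), τ.s z = z ∧
      (A.nC i).1 * y.1.1 * (A.nC i).1⁻¹ = g * (A.nC i).1 * z := by
    intro y
    have hG : (A.nC i).1 * y.1.1 * (A.nC i).1⁻¹ ∈ A.G1 :=
      Subgroup.mul_mem _ (Subgroup.mul_mem _ (A.nC_mem i hi) y.1.2) (Subgroup.inv_mem _ (A.nC_mem i hi))
    exact exists_of_cell A hi hG (conj_mem_cell A hA hi y.2.1 y.2.2.1 y.2.2.2)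
  choose g hg z hz hzs he using hex
  have hz1 : ∀ y : Y, z y ≠ 1 := by
    intro y h1
    have h2 := he y
    rw [h1, mul_one] at h2
    exact V_ne_B_mul A hi (nC_conj_mem_V A hi y.2.1) (hg y) h2
  let φ : Y → Y := fun y => ⟨⟨z y, A.UL_fix i hi _ (hz y) (hzs y)⟩, hz y, hzs y, hz1 y⟩
  have hinj : Function.Injective φ := by
    intro y y' e
    have e1 : z y = z y' := congrArg (fun a : Y => a.1.1) e
    have h1 := he y
    have h2 := he y'
    rw [e1] at h1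
    have h3 : ((A.nC i).1 * y.1.1 * (A.nC i).1⁻¹) * ((A.nC i).1 * y'.1.1 * (A.nC i).1⁻¹)⁻¹ = g y * (g y')⁻¹ := by
      rw [h1, h2]
      group
    have h4 : g y * (g y')⁻¹ ∈ D.borelSubgroup F ⊓ D.negUnipotent F := by
      refine ⟨Subgroup.mul_mem _ (hg y) (Subgroup.inv_mem _ (hg y')), ?_⟩
      rw [← h3]
      exact Subgroup.mul_mem _ (nC_conj_mem_V A hi y.2.1) (Subgroup.inv_mem _ (nC_conj_mem_V A hi y'.2.1))
    rw [hF.B_inf_V, Subgroup.mem_bot] at h4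
    rw [h4] at h3
    have h5 : (A.nC i).1 * y.1.1 * (A.nC i).1⁻¹ = (A.nC i).1 * y'.1.1 * (A.nC i).1⁻¹ := mul_inv_eq_one.1 h3
    have h6 : y.1.1 = y'.1.1 := by simpa using h5
    exact Subtype.ext (Subtype.ext h6)
  haveI : Finite Y := inferInstance
  have hsurj := Finite.surjective_of_injective hinj
  obtain ⟨y, hy⟩ := hsurj ⟨⟨x, A.UL_fix i hi _ hx hxs⟩, hx, hxs, hx1⟩
  have e1 : z y = x := congrArg (fun a : Y => a.1.1) hy
  refine ⟨y.1.1, y.2.1, y.2.2.1, g y, hg y, ?_⟩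
  rw [he y, e1]

/-- The intersection of `V` with a parabolic of a class. -/
theorem V_inf_P (hA : GHyp A) {i : ℕ} (hi : i < D.rank) {v : GL D.Idx F} (hvG : v ∈ A.G1) (hv : v ∈ D.negUnipotent F)
    (hc : v ∈ D.borelSubgroup F ∨ v ∈ cellS D F (A.nC i).1) :
    ∃ y ∈ UL D F (A.cls i), τ.s y = y ∧ v = (A.nC i).1 * y * (A.nC i).1⁻¹ := by
  rcases hc with hc | hc
  · have h3 : v ∈ D.borelSubgroup F ⊓ D.negUnipotent F := ⟨hc, hv⟩
    rw [hF.B_inf_V, Subgroup.mem_bot] at h3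
    exact ⟨1, Subgroup.one_mem _, τ.s_one, by simpa using h3⟩
  · obtain ⟨g, hg, x, hx, hxs, e⟩ := exists_of_cell A hi hvG hc
    have hx1 : x ≠ 1 := by
      intro h1
      rw [h1, mul_one] at e
      exact V_ne_B_mul A hi hv hg e
    obtain ⟨y, hy, hys, g', hg', e'⟩ := exists_conj_eq A hA hi hx hxs hx1
    refine ⟨y, hy, hys, ?_⟩
    have h3 : v * ((A.nC i).1 * y * (A.nC i).1⁻¹)⁻¹ = g * g'⁻¹ := by
      rw [e', e]
      group
    have h4 : g * g'⁻¹ ∈ D.borelSubgroup F ⊓ D.negUnipotent F := by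
      refine ⟨Subgroup.mul_mem _ hg (Subgroup.inv_mem _ hg'), ?_⟩
      rw [← h3]
      exact Subgroup.mul_mem _ hv (Subgroup.inv_mem _ (nC_conj_mem_V A hi hy))
    rw [hF.B_inf_V, Subgroup.mem_bot] at h4
    rw [h4] at h3
    exact mul_inv_eq_one.1 h3

/-- The hypotheses on a longest element. -/
theorem opp_swap (n₀ : ↥(D.monomialSubgroup F))
    (hiff : ∀ s : Fin D.nroots, (R.N ≤ (s : ℕ) ↔ ((hF.rhoN F n₀ s : Fin D.nroots) : ℕ) < R.N)) :
    (∀ x : GL D.Idx F, x ∈ D.posUnipotent F ↔ n₀.1 * x * n₀.1⁻¹ ∈ D.negUnipotent F) ∧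
    (∀ x : GL D.Idx F, x ∈ D.negUnipotent F ↔ n₀.1 * x * n₀.1⁻¹ ∈ D.posUnipotent F) := by
  obtain ⟨u₀, hact⟩ := hF.rhoN_spec n₀
  refine ⟨?_, ?_⟩
  · have hm₁ := hF.map_conj_U_of_act hact hiff
    intro x
    constructor
    · intro h
      rw [← hm₁]
      exact ⟨x, h, rfl⟩
    · intro h
      rw [← hm₁] at h
      obtain ⟨u, hu, e⟩ := h
      have : u = x := by
        have e' : n₀.1 * u * n₀.1⁻¹ = n₀.1 * x * n₀.1⁻¹ := e
        simpa using e'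
      rwa [← this]
  · have hm₂ : (D.posUnipotent F).map (MulAut.conj n₀.1⁻¹).toMonoidHom = D.negUnipotent F := by
      refine hF.map_conj_U_of_act hact.inv ?_
      intro s
      have h1 := hiff ((hF.rhoN F n₀)⁻¹ s)
      have h0 : (hF.rhoN F n₀) ((hF.rhoN F n₀)⁻¹ s) = s := by simp
      rw [h0] at h1
      have h2 := hF.two
      have hs := s.2
      have hs' := ((hF.rhoN F n₀)⁻¹ s).2
      omega
    intro x
    constructor
    · intro h
      rw [← hm₂] at h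
      obtain ⟨u, hu, e⟩ := h
      have e' : n₀.1⁻¹ * u * n₀.1⁻¹⁻¹ = x := e
      rw [← e']
      simpa [mul_assoc] using hu
    · intro h
      rw [← hm₂]
      refine ⟨_, h, ?_⟩
      show n₀.1⁻¹ * (n₀.1 * x * n₀.1⁻¹) * n₀.1⁻¹⁻¹ = x
      group

omit [Fintype F] in
theorem nrm_symm {θ : ↥A.G1 ≃* ↥A.G1} (hθ : Nrm A θ) : Nrm A θ.symm := by
  refine ⟨fun x => ?_, fun x => ?_⟩
  · rw [← hθ.u]
    simp
  · rw [← hθ.v]
    simp

omit [Fintype F] in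
theorem nrm_trans {θ θ' : ↥A.G1 ≃* ↥A.G1} (hθ : Nrm A θ) (hθ' : Nrm A θ') : Nrm A (θ.trans θ') := by
  refine ⟨fun x => ?_, fun x => ?_⟩
  · rw [MulEquiv.trans_apply, hθ'.u, hθ.u]
  · rw [MulEquiv.trans_apply, hθ'.v, hθ.v]

omit [Fintype F] in
/-- Conjugating by an element swapping `U` and `V`. -/
theorem nrm_conj_opp {θ : ↥A.G1 ≃* ↥A.G1} (hθ : Nrm A θ) (N : ↥A.G1)
    (hU : ∀ x : GL D.Idx F, x ∈ D.posUnipotent F ↔ N.1 * x * N.1⁻¹ ∈ D.negUnipotent F)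
    (hV : ∀ x : GL D.Idx F, x ∈ D.negUnipotent F ↔ N.1 * x * N.1⁻¹ ∈ D.posUnipotent F) :
    Nrm A (((MulAut.conj N⁻¹).trans θ).trans (MulAut.conj N)) := by
  have e : ∀ g : ↥A.G1, (((MulAut.conj N⁻¹).trans θ).trans (MulAut.conj N)) g = N * θ (N⁻¹ * g * N) * N⁻¹ := by
    intro g
    simp [MulEquiv.trans_apply, MulAut.conj_apply]
  have e1 : ∀ g : ↥A.G1, N.1 * (N⁻¹ * g * N).1 * N.1⁻¹ = g.1 := by
    intro g
    simp only [Subgroup.coe_mul, Subgroup.coe_inv]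
    group
  refine ⟨fun x => ?_, fun x => ?_⟩
  · rw [e]
    show N.1 * (θ (N⁻¹ * x * N)).1 * N.1⁻¹ ∈ _ ↔ _
    rw [← hV, hθ.v, hV, e1]
  · rw [e]
    show N.1 * (θ (N⁻¹ * x * N)).1 * N.1⁻¹ ∈ _ ↔ _
    rw [← hU, hθ.u, hU, e1]

/-- Normalised automorphisms preserve `H₁`. -/
theorem nrm_map_diag (hA : GHyp A) {θ : ↥A.G1 ≃* ↥A.G1} (hθ : Nrm A θ) {x : ↥A.G1}
    (hx : x.1 ∈ D.diagonalSubgroup F) : (θ x).1 ∈ D.diagonalSubgroup F := by
  rw [mem_diag_iff A hA] at hx ⊢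
  refine ⟨fun u hu => ?_, fun u hu => ?_⟩
  · have e : (θ x)⁻¹ * u * θ x = θ (x⁻¹ * θ.symm u * x) := by simp
    rw [e, hθ.u]
    apply hx.1
    rw [← hθ.u]
    simpa using hu
  · have e : (θ x)⁻¹ * u * θ x = θ (x⁻¹ * θ.symm u * x) := by simp
    rw [e, hθ.v]
    apply hx.2
    rw [← hθ.v]
    simpa using hu

/-- A normalised automorphism fixing `U_i` pointwise moves `n_i` by `B` on the left. -/
theorem nrm_nC_form (hA : GHyp A) {θ : ↥A.G1 ≃* ↥A.G1} (hθ : Nrm A θ) {i : ℕ} (hi : i < D.rank)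
    (hP : ∀ g, θ g ∈ (bnP hA).parabolic {sE A hi} ↔ g ∈ (bnP hA).parabolic {sE A hi})
    (hfix : ∀ x (hx : x ∈ UL D F (A.cls i)) (hs : τ.s x = x), (θ ⟨x, A.UL_fix i hi x hx hs⟩).1 = x) :
    ∃ b ∈ D.borelSubgroup F, (θ (sE A hi)).1 = b * (A.nC i).1 := by
  have hcell : (A.nC i).1 ∈ cellS D F (A.nC i).1 :=
    ⟨1, Subgroup.one_mem _, 1, Subgroup.one_mem _, by simp⟩
  have h2 : sE A hi ∈ (bnP hA).parabolic {sE A hi} :=
    (mem_parabolic_iff_cell A hA hi _).2 (Or.inr hcell)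
  have h3 := (hP _).2 h2
  have hnB : (θ (sE A hi)).1 ∉ D.borelSubgroup F := by
    intro h
    exact nCl_not_mem_B A hi ((map_borel A hA hθ.u _).1 h)
  have h4 : (θ (sE A hi)).1 ∈ cellS D F (A.nC i).1 := by
    rcases (mem_parabolic_iff_cell A hA hi _).1 h3 with h5 | h5
    · exact absurd h5 hnB
    · exact h5
  obtain ⟨b, hb, x, hx, hxs, e⟩ := exists_of_cell A hi (θ (sE A hi)).2 h4
  by_cases hx1 : x = 1
  · exact ⟨b, hb, by rw [e, hx1, mul_one]⟩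
  exfalso
  have hxi : x⁻¹ ∈ UL D F (A.cls i) := Subgroup.inv_mem _ hx
  have hxis : τ.s x⁻¹ = x⁻¹ := by
    rw [τ.s_inv (hF.c.posUnipotent_le_group (hF.UL_le_U _ hx)), hxs]
  have hxi1 : x⁻¹ ≠ 1 := by simpa using hx1
  obtain ⟨y, hy, hys, g', hg', e'⟩ := exists_conj_eq A hA hi hxi hxis hxi1
  have hxG : x ∈ A.G1 := A.UL_fix i hi x hx hxs
  have hyG : y ∈ A.G1 := A.UL_fix i hi y hy hys
  have hnG := A.nC_mem i hi
  have hg'G : g' ∈ A.G1 := by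
    have e2 : g' = (A.nC i).1 * y * (A.nC i).1⁻¹ * x * (A.nC i).1⁻¹ := by
      rw [e']
      group
    rw [e2]
    exact Subgroup.mul_mem _ (Subgroup.mul_mem _ (Subgroup.mul_mem _ (Subgroup.mul_mem _ hnG hyG) (Subgroup.inv_mem _ hnG)) hxG) (Subgroup.inv_mem _ hnG)
  obtain ⟨X', hX'⟩ : ∃ X' : ↥A.G1, X'.1 = x := ⟨⟨x, hxG⟩, rfl⟩
  obtain ⟨Y', hY'⟩ : ∃ Y' : ↥A.G1, Y'.1 = y := ⟨⟨y, hyG⟩, rfl⟩
  obtain ⟨G', hG'⟩ : ∃ G' : ↥A.G1, G'.1 = g' := ⟨⟨g', hg'G⟩, rfl⟩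
  have hSE : (sE A hi).1 = (A.nC i).1 := rfl
  have e3 : sE A hi * Y' * (sE A hi)⁻¹ = G' * sE A hi * X'⁻¹ := by
    apply Subtype.ext
    simp only [Subgroup.coe_mul, Subgroup.coe_inv, hX', hY', hG', hSE]
    exact e'
  have hθX : (θ X').1 = x := by
    have : X' = ⟨x, A.UL_fix i hi x hx hxs⟩ := Subtype.ext hX'
    rw [this]
    exact hfix x hx hxs
  have hvV : (sE A hi * Y' * (sE A hi)⁻¹).1 ∈ D.negUnipotent F := by
    simp only [Subgroup.coe_mul, Subgroup.coe_inv, hY', hSE]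
    exact nC_conj_mem_V A hi hy
  have h5 := (hθ.v _).2 hvV
  rw [e3] at h5
  have e4 : (θ (G' * sE A hi * X'⁻¹)).1 = ((θ G').1 * b) * (A.nC i).1 := by
    simp only [map_mul, map_inv, Subgroup.coe_mul, Subgroup.coe_inv, hθX]
    rw [e]
    group
  rw [e4] at h5
  have hG'B : (θ G').1 ∈ D.borelSubgroup F := (map_borel A hA hθ.u _).2 (by rw [hG']; exact hg')
  exact V_ne_B_mul A hi h5 (Subgroup.mul_mem _ hG'B hb) rfl

/-- A normalised automorphism fixing `U_i` pointwise fixes `V ∩ P_i` pointwise. -/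
theorem nrm_fix_V (hA : GHyp A) {θ : ↥A.G1 ≃* ↥A.G1} (hθ : Nrm A θ) {i : ℕ} (hi : i < D.rank)
    (hP : ∀ g, θ g ∈ (bnP hA).parabolic {sE A hi} ↔ g ∈ (bnP hA).parabolic {sE A hi})
    (hfix : ∀ x (hx : x ∈ UL D F (A.cls i)) (hs : τ.s x = x), (θ ⟨x, A.UL_fix i hi x hx hs⟩).1 = x)
    (v : ↥A.G1) (hv : v.1 ∈ D.negUnipotent F) (hc : v ∈ (bnP hA).parabolic {sE A hi}) : θ v = v := by
  obtain ⟨b, hb, eb⟩ := nrm_nC_form A hA hθ hi hP hfix
  rcases (mem_parabolic_iff_cell A hA hi _).1 hc with hc | hc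
  · have h3 : v.1 ∈ D.borelSubgroup F ⊓ D.negUnipotent F := ⟨hc, hv⟩
    rw [hF.B_inf_V, Subgroup.mem_bot] at h3
    have h4 : v = 1 := Subtype.ext h3
    rw [h4, map_one]
  · obtain ⟨g, hg, x, hx, hxs, e⟩ := exists_of_cell A hi v.2 hc
    have hxG : x ∈ A.G1 := A.UL_fix i hi x hx hxs
    have hnG := A.nC_mem i hi
    have hgG : g ∈ A.G1 := by
      have e2 : g = v.1 * x⁻¹ * (A.nC i).1⁻¹ := by
        rw [e]
        group
      rw [e2]
      exact Subgroup.mul_mem _ (Subgroup.mul_mem _ v.2 (Subgroup.inv_mem _ hxG)) (Subgroup.inv_mem _ hnG)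
    obtain ⟨X', hX'⟩ : ∃ X' : ↥A.G1, X'.1 = x := ⟨⟨x, hxG⟩, rfl⟩
    obtain ⟨G', hG'⟩ : ∃ G' : ↥A.G1, G'.1 = g := ⟨⟨g, hgG⟩, rfl⟩
    have hSE : (sE A hi).1 = (A.nC i).1 := rfl
    have e3 : v = G' * sE A hi * X' := by
      apply Subtype.ext
      simp only [Subgroup.coe_mul, hX', hG', hSE]
      exact e
    have hθX : (θ X').1 = x := by
      have : X' = ⟨x, A.UL_fix i hi x hx hxs⟩ := Subtype.ext hX'
      rw [this]
      exact hfix x hx hxs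
    have hG'B : (θ G').1 ∈ D.borelSubgroup F := (map_borel A hA hθ.u _).2 (by rw [hG']; exact hg)
    have e4 : (θ v).1 = ((θ G').1 * b) * (A.nC i).1 * x := by
      rw [e3]
      simp only [map_mul, Subgroup.coe_mul, hθX]
      rw [eb]
      group
    have h3 : (θ v).1 * v.1⁻¹ = ((θ G').1 * b) * g⁻¹ := by
      rw [e4, e]
      group
    have h4 : (θ v).1 * v.1⁻¹ ∈ D.borelSubgroup F ⊓ D.negUnipotent F := by
      refine ⟨?_, Subgroup.mul_mem _ ((hθ.v v).2 hv) (Subgroup.inv_mem _ hv)⟩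
      rw [h3]
      exact Subgroup.mul_mem _ (Subgroup.mul_mem _ hG'B hb) (Subgroup.inv_mem _ hg)
    rw [hF.B_inf_V, Subgroup.mem_bot] at h4
    exact Subtype.ext (mul_inv_eq_one.1 h4)

omit A [Fintype F] in
theorem diag_comm (hF : Full T X R D) {a b : GL D.Idx F} (ha : a ∈ D.diagonalSubgroup F) (hb : b ∈ D.diagonalSubgroup F) :
    a * b = b * a := by
  obtain ⟨c, rfl⟩ := hF.mem_diagonal_iff.1 ha
  obtain ⟨c', rfl⟩ := hF.mem_diagonal_iff.1 hb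
  rw [tor_mul, tor_mul, mul_comm]

/-- The reflection argument: automorphisms moving `n_i` by `B` on the left commute with `n_i` on `H₁`. -/
theorem nrm_conj_diag (hA : GHyp A) {θ : ↥A.G1 ≃* ↥A.G1} (hθ : Nrm A θ) {i : ℕ} (hi : i < D.rank)
    {b : GL D.Idx F} (hb : b ∈ D.borelSubgroup F) (eb : (θ (sE A hi)).1 = b * (A.nC i).1)
    {x : ↥A.G1} (hx : x.1 ∈ D.diagonalSubgroup F) :
    θ (sE A hi * x * (sE A hi)⁻¹) = sE A hi * θ x * (sE A hi)⁻¹ := by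
  have hnG := A.nC_mem i hi
  have hSE : (sE A hi).1 = (A.nC i).1 := rfl
  have hbG : b ∈ A.G1 := by
    have e2 : b = (θ (sE A hi)).1 * (A.nC i).1⁻¹ := by
      rw [eb]
      group
    rw [e2]
    exact Subgroup.mul_mem _ (θ _).2 (Subgroup.inv_mem _ hnG)
  have hNnorm := hF.monomial_le_normalizer (A.nC i).2
  have hzd := nrm_map_diag A hA hθ hx
  set z := θ x with hz
  have hh : (A.nC i).1 * z.1 * (A.nC i).1⁻¹ ∈ D.diagonalSubgroup F :=
    (Subgroup.mem_set_normalizer_iff.1 hNnorm _).1 hzd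
  have hx' : (sE A hi * x * (sE A hi)⁻¹).1 ∈ D.diagonalSubgroup F :=
    (Subgroup.mem_set_normalizer_iff.1 hNnorm _).1 hx
  have hd := nrm_map_diag A hA hθ hx'
  obtain ⟨u, hu, t, ht, hbe⟩ := A.borel_split hb hbG
  set h₀ := (A.nC i).1 * z.1 * (A.nC i).1⁻¹ with hh₀
  have e1 : (θ (sE A hi * x * (sE A hi)⁻¹)).1 = u * h₀ * u⁻¹ := by
    have e2 : θ (sE A hi * x * (sE A hi)⁻¹) = θ (sE A hi) * z * (θ (sE A hi))⁻¹ := by
      simp [hz]
    rw [e2]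
    simp only [Subgroup.coe_mul, Subgroup.coe_inv, eb]
    have e3 : b * (A.nC i).1 * z.1 * (b * (A.nC i).1)⁻¹ = b * h₀ * b⁻¹ := by
      rw [hh₀]
      group
    rw [e3, hbe]
    have e4 : t * h₀ = h₀ * t := diag_comm hF ht.1 hh
    calc u * t * h₀ * (u * t)⁻¹ = u * (t * h₀) * t⁻¹ * u⁻¹ := by group
      _ = u * h₀ * u⁻¹ := by rw [e4]; group
  rw [e1] at hd
  have hU : (u * h₀ * u⁻¹) * h₀⁻¹ ∈ D.posUnipotent F ⊓ D.diagonalSubgroup F := by
    refine ⟨?_, Subgroup.mul_mem _ hd (Subgroup.inv_mem _ hh)⟩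
    have h2 := (Subgroup.mem_normalizer_iff.1 (hF.diagonal_le_normalizer_U (F := F) hh) u⁻¹).1 (Subgroup.inv_mem _ hu.1)
    have e2 : (u * h₀ * u⁻¹) * h₀⁻¹ = u * (h₀ * u⁻¹ * h₀⁻¹) := by group
    rw [e2]
    exact Subgroup.mul_mem _ hu.1 h2
  rw [hF.U_inf_H, Subgroup.mem_bot] at hU
  have e5 : u * h₀ * u⁻¹ = h₀ := mul_inv_eq_one.1 hU
  apply Subtype.ext
  rw [e1, e5]
  simp only [Subgroup.coe_mul, Subgroup.coe_inv, hSE]
  rfl

/-- Conjugation by an element of `H₁` preserves `U` and `V`. -/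
theorem nrm_conj (hA : GHyp A) {x : ↥A.G1} (hx : x.1 ∈ D.diagonalSubgroup F) :
    Nrm A (MulAut.conj x) := by
  have hx' : (x⁻¹).1 ∈ D.diagonalSubgroup F := Subgroup.inv_mem _ hx
  have h1 := (mem_diag_iff A hA x).1 hx
  have h2 := (mem_diag_iff A hA x⁻¹).1 hx'
  refine ⟨fun y => ⟨fun hy => ?_, fun hy => ?_⟩, fun y => ⟨fun hy => ?_, fun hy => ?_⟩⟩
  · have e := h1.1 _ hy
    rw [MulAut.conj_apply] at e
    have e2 : x⁻¹ * (x * y * x⁻¹) * x = y := by group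
    rwa [e2] at e
  · have e := h2.1 _ hy
    rw [MulAut.conj_apply]
    rwa [inv_inv] at e
  · have e := h1.2 _ hy
    rw [MulAut.conj_apply] at e
    have e2 : x⁻¹ * (x * y * x⁻¹) * x = y := by group
    rwa [e2] at e
  · have e := h2.2 _ hy
    rw [MulAut.conj_apply]
    rwa [inv_inv] at e

/-- An element whose conjugation preserves `U` and `V` lies in `H₁`. -/
theorem diag_of_nrm_conj (hA : GHyp A) {z : ↥A.G1} (hθ : Nrm A (MulAut.conj z)) : z.1 ∈ D.diagonalSubgroup F := by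
  rw [mem_diag_iff A hA]
  refine ⟨fun u hu => ?_, fun u hu => ?_⟩
  · rw [← hθ.u]
    show (z * (z⁻¹ * u * z) * z⁻¹).1 ∈ _
    simpa [mul_assoc] using hu
  · rw [← hθ.v]
    show (z * (z⁻¹ * u * z) * z⁻¹).1 ∈ _
    simpa [mul_assoc] using hu

/-- The Sylow subgroup of the twisted group. -/
theorem exists_sylow {p q N r : ℕ} [Fact p.Prime] (hq : q = p ^ N)
    (hU : Nat.card ↥(D.posUnipotent F ⊓ A.G1) = q) (hG : Nat.card A.G1 = q * r) (hr : ¬ p ∣ r) :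
    ∃ P : Sylow p ↥A.G1, ∀ u : ↥A.G1, u ∈ (P : Subgroup ↥A.G1) ↔ u.1 ∈ D.posUnipotent F := by
  classical
  let Q : Subgroup ↥A.G1 := (D.posUnipotent F).subgroupOf A.G1
  have h3 : Nat.card ↥(D.posUnipotent F ⊓ A.G1) = Nat.card Q := by
    refine Nat.card_congr ?_
    exact {
      toFun := fun x => ⟨⟨x.1, x.2.2⟩, Subgroup.mem_subgroupOf.2 x.2.1⟩
      invFun := fun x => ⟨x.1.1, Subgroup.mem_subgroupOf.1 x.2, x.1.2⟩
      left_inv := fun x => rfl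
      right_inv := fun x => rfl }
  have hQc : Nat.card Q = q := by rw [← h3, hU]
  have hp : p.Prime := Fact.out
  have hQ : IsPGroup p Q := IsPGroup.of_card (n := N) (by rw [hQc, hq])
  have hq0 : 0 < q := by
    rw [hq]
    exact pow_pos hp.pos _
  have hidx : Q.index = r := by
    have h4 := Q.card_mul_index
    rw [hQc, hG] at h4
    exact Nat.eq_of_mul_eq_mul_left hq0 h4
  refine ⟨hQ.toSylow (by rwa [hidx]), fun u => ?_⟩
  rw [IsPGroup.toSylow_coe]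
  exact Subgroup.mem_subgroupOf

omit A [Fintype F] in
/-- The characters of the torus under conjugation by a monomial element. -/
theorem chi_conj (hF : Full T X R D) {n : GL D.Idx F} {σ : Perm (Fin D.nroots)} {u : Fin D.nroots → Fˣ} (hact : hF.RootAct n σ u)
    {c c' : Fin D.rank → Fˣ} (h : tor R D c' = n * tor R D c * n⁻¹) (s : Fin D.nroots) :
    chiT D c' (σ s) = chiT D c s := by
  apply Units.ext
  have e1 := hF.tor_conj_xG c' (σ s).2 ((u s : F))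
  have e2 := hact.conj s 1
  rw [mul_one] at e2
  rw [← e2, h] at e1
  have e3 : n * tor R D c * n⁻¹ * (n * hF.c.xG s 1 * n⁻¹) * (n * tor R D c * n⁻¹)⁻¹ =
      n * (tor R D c * hF.c.xG s 1 * (tor R D c)⁻¹) * n⁻¹ := by group
  rw [e3, hF.tor_conj_xG c s.2, mul_one, hact.conj] at e1
  have e4 := hF.xG_param_inj (σ s).2 e1
  have hu : (u s : F) ≠ 0 := (u s).ne_zero
  have e5 : (u s : F) * ((chiT D c s : Fˣ) : F) = ((chiT D c' (σ s) : Fˣ) : F) * (u s : F) := e4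
  rw [mul_comm] at e5
  exact (mul_right_cancel₀ hu e5).symm

end Cfsg.Agent.Lib.Chev.TwGen
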