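import Cfsg.Agent.Lib.Chev.TwF4P
import Cfsg.Agent.Lib.Chev.TwGenB

/-!
# Automorphisms of `²F₄`: the classes are preserved
-/

set_option autoImplicit false
set_option linter.unusedSectionVars false
set_option linter.unusedVariables false
set_option linter.unnecessarySimpa false

namespace Cfsg.Agent.Lib.Chev.TwF4

open Cfsg.Agent.Lib.Chev Cfsg.Lie Equiv
open Cfsg.Agent.Lib.Chev.Full (cellS)
open Cfsg.Agent.Lib.Chev.TwGen
open Cfsg.Agent.Lib.ChevAut (exists_parabolic_map)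
open Cfsg.Agent.Lib.Chev.TwWF4 (gen)

theorem neg_iff : ∀ r < chevF4.nroots, (RootF4T.R.N ≤ r ↔ chevF4.neg r < RootF4T.R.N) := by decide +kernel
theorem m_L0 : ∀ r ∈ [24, 33], wAct TabF4.X [0, 3] (chevF4.neg r) ∈ [24, 33] := by decide +kernel
theorem m_L1 : ∀ r ∈ [25, 27, 28, 30], wAct TabF4.X [1, 2, 1, 2] (chevF4.neg r) ∈ [25, 27, 28, 30] := by decide +kernel
theorem m'_L0 : ∀ r ∈ [24, 33], chevF4.neg (wAct TabF4.X [0, 3] r) ∈ [24, 33] := by decide +kernel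
theorem m'_L1 : ∀ r ∈ [25, 27, 28, 30], chevF4.neg (wAct TabF4.X [1, 2, 1, 2] r) ∈ [25, 27, 28, 30] := by decide +kernel
theorem neg_L0 : ∀ r ∈ [14, 23], wAct TabF4.X [0, 3] r ∈ [24, 33] := by decide +kernel
theorem neg_L1 : ∀ r ∈ [17, 19, 20, 22], wAct TabF4.X [1, 2, 1, 2] r ∈ [25, 27, 28, 30] := by decide +kernel

variable {K : Type*} [Field K] [Fintype K] {e : ℕ} (d : Dat K e)

namespace Dat

/-- The hypotheses of the (B,N)-pair. -/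
theorem hA : GHyp d.twG := ⟨d.hcls, d.hne⟩

theorem rho_nC (i : ℕ) (hi : i < chevF4.rank) (r : Fin chevF4.nroots) :
    ((hF.rhoN K ((d.twG).nC i) r : Fin chevF4.nroots) : ℕ) = wAct TabF4.X (gen i) r := by
  show ((hF.rhoN K (((gen i).map (hF.nNt K)).prod) r : Fin chevF4.nroots) : ℕ) = _
  rw [hF.rhoN_prod_nNt, hF.prod_wPt_apply (by rcases genL_cases hi with h | h <;> rw [h] <;> decide)]

theorem rho_nC_inv {i : ℕ} (hi : i < chevF4.rank) : (hF.rhoN K ((d.twG).nC i))⁻¹ = hF.rhoN K ((d.twG).nC i) :=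
  inv_eq_of_mul_eq_one_left (d.rho_nC_sq hi)

theorem rho_n₀_inv : (hF.rhoN K (n₀ (K := K)))⁻¹ = hF.rhoN K (n₀ (K := K)) := by
  apply inv_eq_of_mul_eq_one_left
  apply Equiv.ext
  intro s
  show hF.rhoN K (n₀ (K := K)) (hF.rhoN K (n₀ (K := K)) s) = s
  rw [rho_n₀, rho_n₀]
  exact hF.negF_negF s

end Dat

omit [Fintype K] in
theorem LQ0 (r : ℕ) : LQ chevF4 {x | x ∈ gen 0} r ↔ r ∈ [24, 33] := LQ_iff (by decide) lq03 r
omit [Fintype K] in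
theorem LQ1 (r : ℕ) : LQ chevF4 {x | x ∈ gen 1} r ↔ r ∈ [25, 27, 28, 30] := LQ_iff (by decide) lq12 r

namespace Dat

/-- `m = n_i⁻¹ n₀` preserves the class. -/
theorem hL_m {i : ℕ} (hi01 : i = 0 ∨ i = 1) (hi : i < chevF4.rank) (r : ℕ) (hr : r < chevF4.nroots) (hL : LQ chevF4 ((d.twG).cls i) r) :
    LQ chevF4 ((d.twG).cls i) (((hF.rhoN K ((d.twG).nC i))⁻¹ * hF.rhoN K (n₀ (K := K))) ⟨r, hr⟩ : Fin chevF4.nroots) := by
  rw [d.rho_nC_inv hi, Perm.mul_apply, rho_n₀, d.rho_nC i hi]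
  show LQ chevF4 {x | x ∈ gen i} (wAct TabF4.X (gen i) (chevF4.neg r))
  have hL' : LQ chevF4 {x | x ∈ gen i} r := hL
  rcases hi01 with rfl | rfl
  · exact (LQ0 _).2 (m_L0 _ ((LQ0 _).1 hL'))
  · exact (LQ1 _).2 (m_L1 _ ((LQ1 _).1 hL'))

/-- `m' = n₀⁻¹ n_i` preserves the class. -/
theorem hL_m' {i : ℕ} (hi01 : i = 0 ∨ i = 1) (hi : i < chevF4.rank) (r : ℕ) (hr : r < chevF4.nroots) (hL : LQ chevF4 ((d.twG).cls i) r) :
    LQ chevF4 ((d.twG).cls i) (((hF.rhoN K (n₀ (K := K)))⁻¹ * hF.rhoN K ((d.twG).nC i)) ⟨r, hr⟩ : Fin chevF4.nroots) := by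
  rw [rho_n₀_inv, Perm.mul_apply, rho_n₀]
  show LQ chevF4 {x | x ∈ gen i} (chevF4.neg ((hF.rhoN K ((d.twG).nC i) ⟨r, hr⟩ : Fin chevF4.nroots) : ℕ))
  rw [d.rho_nC i hi]
  have hL' : LQ chevF4 {x | x ∈ gen i} r := hL
  rcases hi01 with rfl | rfl
  · exact (LQ0 _).2 (m'_L0 _ ((LQ0 _).1 hL'))
  · exact (LQ1 _).2 (m'_L1 _ ((LQ1 _).1 hL'))

theorem hLlt {i : ℕ} (r : ℕ) (hL : LQ chevF4 ((d.twG).cls i) r) : r < chevF4.nroots := hL.1.1

/-- Conjugating by the longest element and by `n_i` agree on `U_i`. -/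
theorem n0_conj_eq {i : ℕ} (hi01 : i = 0 ∨ i = 1) (hi : i < chevF4.rank) {x : GL chevF4.Idx K}
    (hx : x ∈ UL chevF4 K ((d.twG).cls i)) (hs : d.τ.s x = x) :
    ∃ y ∈ UL chevF4 K ((d.twG).cls i), d.τ.s y = y ∧
      (n₀ (K := K)).1 * x * (n₀ (K := K)).1⁻¹ = ((d.twG).nC i).1 * y * ((d.twG).nC i).1⁻¹ := by
  have hm := (Subgroup.mul_mem _ (Subgroup.inv_mem _ ((d.twG).nC_mem i hi)) d.n₀_mem)
  have hxG : x ∈ (d.twG).G1 := (d.twG).UL_fix i hi x hx hs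
  have hy := conj_rootClosure hF (s := ((d.twG).nC i)⁻¹ * n₀ (K := K)) (fun r hL => d.hLlt r hL) (fun r hr hL => by
    rw [map_mul, map_inv]
    exact d.hL_m hi01 hi r hr hL) hx
  refine ⟨_, hy, ?_, ?_⟩
  · apply (d.twG).G1_fix
    exact Subgroup.mul_mem _ (Subgroup.mul_mem _ hm hxG) (Subgroup.inv_mem _ hm)
  · simp only [Subgroup.coe_mul, Subgroup.coe_inv]
    group

theorem ni_conj_eq {i : ℕ} (hi01 : i = 0 ∨ i = 1) (hi : i < chevF4.rank) {x : GL chevF4.Idx K}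
    (hx : x ∈ UL chevF4 K ((d.twG).cls i)) (hs : d.τ.s x = x) :
    ∃ y ∈ UL chevF4 K ((d.twG).cls i), d.τ.s y = y ∧
      ((d.twG).nC i).1 * x * ((d.twG).nC i).1⁻¹ = (n₀ (K := K)).1 * y * (n₀ (K := K)).1⁻¹ := by
  have hm := (Subgroup.mul_mem _ (Subgroup.inv_mem _ d.n₀_mem) ((d.twG).nC_mem i hi))
  have hxG : x ∈ (d.twG).G1 := (d.twG).UL_fix i hi x hx hs
  have hy := conj_rootClosure hF (s := (n₀ (K := K))⁻¹ * (d.twG).nC i) (fun r hL => d.hLlt r hL) (fun r hr hL => by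
    rw [map_mul, map_inv]
    exact d.hL_m' hi01 hi r hr hL) hx
  refine ⟨_, hy, ?_, ?_⟩
  · apply (d.twG).G1_fix
    exact Subgroup.mul_mem _ (Subgroup.mul_mem _ hm hxG) (Subgroup.inv_mem _ hm)
  · simp only [Subgroup.coe_mul, Subgroup.coe_inv]
    group

/-- Elements of the twisted group -/
noncomputable def gp (t : K) : ↥(d.twG).G1 := ⟨pP d t, d.pP_mem_G1 t⟩

/-- Elements of the twisted group -/
noncomputable def gb (t u : K) : ↥(d.twG).G1 := ⟨bP d t u, d.bP_mem_G1 t u⟩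

/-- Elements of the twisted group -/
noncomputable def gt (p : Kˣ × Kˣ) : ↥(d.twG).G1 := ⟨tor RootF4T.R chevF4 (d.cOf p), d.tor_mem p⟩

theorem gp_mul (t t' : K) : d.gp t * d.gp t' = d.gp (t + t') := Subtype.ext (d.pP_mul t t')

theorem gb_mul (t u t' u' : K) : d.gb t u * d.gb t' u' = d.gb (t + t') (u + u' + d.f t * t') := Subtype.ext (d.bP_mul t u t' u')

theorem gp_zero : d.gp 0 = 1 := Subtype.ext d.pP_zero

theorem gb_zero : d.gb 0 0 = 1 := Subtype.ext d.bP_zero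

theorem gp_inj {t t' : K} (h : d.gp t = d.gp t') : t = t' := d.pW_inj (congrArg Subtype.val h)

theorem gb_inj {t u t' u' : K} (h : d.gb t u = d.gb t' u') : t = t' ∧ u = u' := d.bP_inj' (congrArg Subtype.val h)

theorem gp_mem_UL (t : K) : (d.gp t).1 ∈ UL chevF4 K ((d.twG).cls 0) := d.pW_mem_UL t

theorem gb_mem_UL (t u : K) : (d.gb t u).1 ∈ UL chevF4 K ((d.twG).cls 1) := d.bW_mem_UL t u

theorem gp_of_UL {x : GL chevF4.Idx K} (hx : x ∈ UL chevF4 K ((d.twG).cls 0)) (hs : d.τ.s x = x) : ∃ t, x = (d.gp t).1 := by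
  have h1 : x ∈ UL chevF4 K {x | x ∈ [0, 3]} := hx
  exact d.pair_of_fixed (fun r => Iff.rfl) (mem_UL_03.1 h1) hs

theorem gb_of_UL {x : GL chevF4.Idx K} (hx : x ∈ UL chevF4 K ((d.twG).cls 1)) (hs : d.τ.s x = x) : ∃ t u, x = (d.gb t u).1 := by
  have h1 : x ∈ UL chevF4 K {x | x ∈ [1, 2, 1, 2]} := hx
  obtain ⟨B, A, C, E, hNF⟩ := exists_NF d.h2 (Q := fun r => r ∈ [25, 27, 28, 30]) (fun r hr => by simpa using hr) (mem_UL_12.1 h1)
  exact ⟨B, C, d.word_of_fixed B A C E hNF hs⟩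

/-- The parabolic subgroups. -/
noncomputable abbrev Pa {i : ℕ} (hi : i < chevF4.rank) : Subgroup ↥(d.twG).G1 := (bnP d.hA).parabolic {TwGen.sE d.twG hi}

theorem sE_3 : TwGen.sE d.twG (i := 3) (by decide) = TwGen.sE d.twG (i := 0) (by decide) := rfl
theorem sE_2 : TwGen.sE d.twG (i := 2) (by decide) = TwGen.sE d.twG (i := 1) (by decide) := rfl

/-- No normalised automorphism moves `P₁` to `P₀`. -/
theorem no_10 {θ : ↥(d.twG).G1 ≃* ↥(d.twG).G1} (hθ : Nrm d.twG θ)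
    (hP : ∀ g, θ g ∈ d.Pa (i := 0) (by decide) ↔ g ∈ d.Pa (i := 1) (by decide)) : False := by
  have hi1 : (1 : ℕ) < chevF4.rank := by decide
  have hi0 : (0 : ℕ) < chevF4.rank := by decide
  set S := TwGen.sE d.twG hi1 with hS
  set X := d.gb 1 0 with hX
  set v := S * X * S⁻¹ with hv
  have hSE : S.1 = ((d.twG).nC 1).1 := rfl
  have hvV : v.1 ∈ chevF4.negUnipotent K := by
    simp only [hv, Subgroup.coe_mul, Subgroup.coe_inv, hSE]
    exact nC_conj_mem_V d.twG hi1 (d.gb_mem_UL 1 0)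
  have hcell : ((d.twG).nC 1).1 ∈ cellS chevF4 K ((d.twG).nC 1).1 :=
    ⟨1, Subgroup.one_mem _, 1, Subgroup.one_mem _, by simp⟩
  have hSP : S ∈ d.Pa hi1 := (mem_parabolic_iff_cell d.twG d.hA hi1 _).2 (Or.inr hcell)
  have hXP : X ∈ d.Pa hi1 := (mem_parabolic_iff_cell d.twG d.hA hi1 _).2
    (Or.inl (hF.c.posUnipotent_le_borel (hF.UL_le_U _ (d.gb_mem_UL 1 0))))
  have hvP : v ∈ d.Pa hi1 := Subgroup.mul_mem _ (Subgroup.mul_mem _ hSP hXP) (Subgroup.inv_mem _ hSP)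
  have h1 := (hP v).2 hvP
  have h2 := (hθ.v v).2 hvV
  obtain ⟨y, hy, hys, e⟩ := V_inf_P d.twG d.hA hi0 (θ v).2 h2 ((mem_parabolic_iff_cell d.twG d.hA hi0 _).1 h1)
  obtain ⟨t, rfl⟩ := d.gp_of_UL hy hys
  have h3 : θ v * θ v = 1 := by
    apply Subtype.ext
    have e1 : ((d.gp t).1) * ((d.gp t).1) = 1 := by
      have := congrArg Subtype.val (d.gp_mul t t)
      have ht : t + t = 0 := by linear_combination t * d.h2
      rw [ht, d.gp_zero] at this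
      exact this
    show (θ v).1 * (θ v).1 = 1
    rw [e]
    calc ((d.twG).nC 0).1 * (d.gp t).1 * ((d.twG).nC 0).1⁻¹ * (((d.twG).nC 0).1 * (d.gp t).1 * ((d.twG).nC 0).1⁻¹)
        = ((d.twG).nC 0).1 * ((d.gp t).1 * (d.gp t).1) * ((d.twG).nC 0).1⁻¹ := by group
      _ = 1 := by rw [e1]; group
  have h4 : v * v = 1 := by
    apply θ.injective
    rw [map_mul, map_one, h3]
  have h5 : X * X = 1 := by
    have e1 : v * v = S * (X * X) * S⁻¹ := by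
      simp only [hv]
      group
    rw [e1] at h4
    have h6 : S * (X * X) = S := mul_inv_eq_one.1 h4
    simpa using h6
  rw [hX, d.gb_mul, ← d.gb_zero] at h5
  have h6 := (d.gb_inj h5).2
  have h7 : d.f (1 : K) = 1 := map_one _
  rw [h7] at h6
  simp at h6

/-- Normalised automorphisms preserve the parabolics. -/
theorem nrm_par {θ : ↥(d.twG).G1 ≃* ↥(d.twG).G1} (hθ : Nrm d.twG θ) {i : ℕ} (hi01 : i = 0 ∨ i = 1) (hi : i < chevF4.rank) (g : ↥(d.twG).G1) :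
    θ g ∈ d.Pa hi ↔ g ∈ d.Pa hi := by
  have hB : ∀ x, θ x ∈ (bnP d.hA).B ↔ x ∈ (bnP d.hA).B := by
    intro x
    rw [mem_B_iff, mem_B_iff]
    exact map_borel d.twG d.hA hθ.u x
  obtain ⟨s', ⟨j, hj, hs'⟩, hs⟩ := exists_parabolic_map (bnP d.hA) hB (sE_mem_S d.twG d.hA hi)
  have hs'e : s' = TwGen.sE d.twG hj := Subtype.ext hs'
  subst hs'e
  have hj' : j < 4 := hj
  have hi0 : (0 : ℕ) < chevF4.rank := by decide
  have hi1 : (1 : ℕ) < chevF4.rank := by decide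
  have hj0 : TwGen.sE d.twG hj = TwGen.sE d.twG hi0 ∨ TwGen.sE d.twG hj = TwGen.sE d.twG hi1 := by
    interval_cases j
    · exact Or.inl rfl
    · exact Or.inr rfl
    · exact Or.inr rfl
    · exact Or.inl rfl
  rcases hi01 with rfl | rfl <;> rcases hj0 with h | h <;> rw [h] at hs
  · exact hs g
  · exfalso
    refine d.no_10 (nrm_symm d.twG hθ) (fun y => ?_)
    have := hs (θ.symm y)
    rw [MulEquiv.apply_symm_apply] at this
    exact this.symm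
  · exfalso
    exact d.no_10 hθ hs
  · exact hs g

/-- The longest element as an element of the twisted group. -/
noncomputable def N₀ : ↥(d.twG).G1 := ⟨(n₀ (K := K)).1, d.n₀_mem⟩

theorem N₀_swap : (∀ x : GL chevF4.Idx K, x ∈ chevF4.posUnipotent K ↔ (d.N₀).1 * x * (d.N₀).1⁻¹ ∈ chevF4.negUnipotent K) ∧
    (∀ x : GL chevF4.Idx K, x ∈ chevF4.negUnipotent K ↔ (d.N₀).1 * x * (d.N₀).1⁻¹ ∈ chevF4.posUnipotent K) :=
  opp_swap d.twG (n₀ (K := K)) (fun s => by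
    rw [rho_n₀]
    exact neg_iff s s.2)

/-- Normalised automorphisms preserve the classes. -/
theorem nrm_UL {θ : ↥(d.twG).G1 ≃* ↥(d.twG).G1} (hθ : Nrm d.twG θ) {i : ℕ} (hi01 : i = 0 ∨ i = 1) (hi : i < chevF4.rank)
    {x : GL chevF4.Idx K} (hx : x ∈ UL chevF4 K ((d.twG).cls i)) (hs : d.τ.s x = x) (g : ↥(d.twG).G1) (hg : g.1 = x) :
    (θ g).1 ∈ UL chevF4 K ((d.twG).cls i) := by
  obtain ⟨hU, hV⟩ := d.N₀_swap
  have hn := nrm_conj_opp d.twG hθ d.N₀ hU hV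
  set θ' := ((MulAut.conj (d.N₀)⁻¹).trans θ).trans (MulAut.conj d.N₀) with hθ'
  obtain ⟨y, hy, hys, e⟩ := d.n0_conj_eq hi01 hi hx hs
  have hxU := hF.UL_le_U _ hx
  have hvV : (d.N₀ * g * (d.N₀)⁻¹).1 ∈ chevF4.negUnipotent K := by
    simp only [Subgroup.coe_mul, Subgroup.coe_inv, hg]
    exact (hU x).1 hxU
  have hcell : ((d.twG).nC i).1 ∈ cellS chevF4 K ((d.twG).nC i).1 :=
    ⟨1, Subgroup.one_mem _, 1, Subgroup.one_mem _, by simp⟩
  have hSP : TwGen.sE d.twG hi ∈ d.Pa hi := (mem_parabolic_iff_cell d.twG d.hA hi _).2 (Or.inr hcell)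
  have hyP : (⟨y, (d.twG).UL_fix i hi y hy hys⟩ : ↥(d.twG).G1) ∈ d.Pa hi := (mem_parabolic_iff_cell d.twG d.hA hi _).2
    (Or.inl (hF.c.posUnipotent_le_borel (hF.UL_le_U _ hy)))
  have hvP : d.N₀ * g * (d.N₀)⁻¹ ∈ d.Pa hi := by
    have e1 : d.N₀ * g * (d.N₀)⁻¹ = TwGen.sE d.twG hi * ⟨y, (d.twG).UL_fix i hi y hy hys⟩ * (TwGen.sE d.twG hi)⁻¹ := by
      apply Subtype.ext
      simp only [Subgroup.coe_mul, Subgroup.coe_inv, hg]
      exact e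
    rw [e1]
    exact Subgroup.mul_mem _ (Subgroup.mul_mem _ hSP hyP) (Subgroup.inv_mem _ hSP)
  have h1 := (d.nrm_par hn hi01 hi _).2 hvP
  have h2 := (hn.v _).2 hvV
  obtain ⟨y', hy', hy's, e'⟩ := V_inf_P d.twG d.hA hi (θ' _).2 h2 ((mem_parabolic_iff_cell d.twG d.hA hi _).1 h1)
  obtain ⟨x', hx', hx's, e''⟩ := d.ni_conj_eq hi01 hi hy' hy's
  have e3 : θ' (d.N₀ * g * (d.N₀)⁻¹) = d.N₀ * θ g * (d.N₀)⁻¹ := by
    rw [hθ']
    show MulAut.conj d.N₀ (θ (MulAut.conj (d.N₀)⁻¹ (d.N₀ * g * (d.N₀)⁻¹))) = _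
    rw [MulAut.conj_apply, MulAut.conj_apply]
    have e7 : (d.N₀)⁻¹ * (d.N₀ * g * (d.N₀)⁻¹) * (d.N₀)⁻¹⁻¹ = g := by group
    rw [e7]
  rw [e3, e''] at e'
  have e4 : (d.N₀).1 * (θ g).1 * (d.N₀).1⁻¹ = (n₀ (K := K)).1 * x' * (n₀ (K := K)).1⁻¹ := e'
  have e5 : (θ g).1 = x' := by
    have e6 : (d.N₀).1 = (n₀ (K := K)).1 := rfl
    rw [e6] at e4
    simpa using e4
  rw [e5]
  exact hx'

/-- The image of a pair. -/
theorem nrm_gp {θ : ↥(d.twG).G1 ≃* ↥(d.twG).G1} (hθ : Nrm d.twG θ) (t : K) : ∃ t', θ (d.gp t) = d.gp t' := by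
  have h1 := d.nrm_UL hθ (i := 0) (Or.inl rfl) (by decide) (d.gp_mem_UL t) (d.pP_fixed t) (d.gp t) rfl
  obtain ⟨t', ht'⟩ := d.gp_of_UL h1 ((d.twG).G1_fix _ (θ _).2)
  exact ⟨t', Subtype.ext ht'⟩

/-- The image of a class. -/
theorem nrm_gb {θ : ↥(d.twG).G1 ≃* ↥(d.twG).G1} (hθ : Nrm d.twG θ) (t u : K) : ∃ t' u', θ (d.gb t u) = d.gb t' u' := by
  have h1 := d.nrm_UL hθ (i := 1) (Or.inr rfl) (by decide) (d.gb_mem_UL t u) (d.bP_fixed t u) (d.gb t u) rfl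
  obtain ⟨t', u', ht'⟩ := d.gb_of_UL h1 ((d.twG).G1_fix _ (θ _).2)
  exact ⟨t', u', Subtype.ext ht'⟩

end Dat

end Cfsg.Agent.Lib.Chev.TwF4
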