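import Cfsg.Agent.Lib.Chev.TwF4AutA

/-!
# Automorphisms of `²F₄`: the action on the positive classes
-/

set_option autoImplicit false
set_option linter.unusedSectionVars false
set_option linter.unusedVariables false
set_option linter.unnecessarySimpa false

namespace Cfsg.Agent.Lib.Chev.TwF4

open Cfsg.Agent.Lib.Chev Cfsg.Lie Equiv
open Cfsg.Agent.Lib.Chev.Full (cellS)
open Cfsg.Agent.Lib.Chev.TwGen
open Cfsg.Agent.Lib.Chev.TwWF4 (gen)

/-- A field automorphism from an additive map commuting with multiplications up to scalars. -/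
theorem exists_ringEquiv {K : Type*} [Field K] [Finite K] (ψ : K → K) (hadd : ∀ s t, ψ (s + t) = ψ s + ψ t)
    (hinj : Function.Injective ψ) (hmul : ∀ a : K, a ≠ 0 → ∃ a', ∀ t, ψ (a * t) = a' * ψ t) :
    ∃ σ : K ≃+* K, ψ 1 ≠ 0 ∧ ∀ t, ψ t = ψ 1 * σ t := by
  have h0 : ψ 0 = 0 := by
    have := hadd 0 0
    rw [add_zero] at this
    exact left_eq_add.1 this
  have h1 : ψ 1 ≠ 0 := by
    intro h
    rw [← h0] at h
    exact one_ne_zero (hinj h)
  let s : K → K := fun t => ψ t * (ψ 1)⁻¹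
  have hs1 : s 1 = 1 := mul_inv_cancel₀ h1
  have hsadd : ∀ a b, s (a + b) = s a + s b := by
    intro a b
    show ψ (a + b) * (ψ 1)⁻¹ = ψ a * (ψ 1)⁻¹ + ψ b * (ψ 1)⁻¹
    rw [hadd, add_mul]
  have hsmul : ∀ a b, s (a * b) = s a * s b := by
    intro a b
    by_cases ha : a = 0
    · subst ha
      simp [s, h0]
    · obtain ⟨a', ha'⟩ := hmul a ha
      have e1 := ha' 1
      rw [mul_one] at e1
      show ψ (a * b) * (ψ 1)⁻¹ = ψ a * (ψ 1)⁻¹ * (ψ b * (ψ 1)⁻¹)
      rw [ha', e1]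
      field_simp
  let σh : K →+* K :=
    { toFun := s
      map_one' := hs1
      map_mul' := hsmul
      map_zero' := by simp [s, h0]
      map_add' := hsadd }
  have hinj' : Function.Injective σh := σh.injective
  refine ⟨RingEquiv.ofBijective σh ⟨hinj', Finite.surjective_of_injective hinj'⟩, h1, fun t => ?_⟩
  show ψ t = ψ 1 * (ψ t * (ψ 1)⁻¹)
  field_simp

variable {K : Type*} [Field K] [Fintype K] {e : ℕ} (d : Dat K e)

namespace Dat

/-- The field automorphism on units. -/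
noncomputable def fU : Kˣ →* Kˣ := Units.map (d.f : K →* K)

omit [Fintype K] in
theorem fU_val (y : Kˣ) : ((d.fU y : Kˣ) : K) = d.f (y : K) := rfl

theorem fU_sq (y : Kˣ) : (d.fU (d.fU y)) ^ 2 = y := d.map_map_sq y

/-- A character of the torus. -/
noncomputable def aC (p : Kˣ × Kˣ) : Kˣ := p.1 ^ 2 * p.2⁻¹

/-- A character of the torus. -/
noncomputable def bC (p : Kˣ × Kˣ) : Kˣ := p.2 ^ 2 * ((d.fU p.2) ^ 2)⁻¹ * p.1⁻¹

theorem gt_gp (p : Kˣ × Kˣ) (t : K) : d.gt p * d.gp t * (d.gt p)⁻¹ = d.gp ((aC p : Kˣ) * t) := by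
  apply Subtype.ext
  show tor RootF4T.R chevF4 (d.cOf p) * pP d t * (tor RootF4T.R chevF4 (d.cOf p))⁻¹ = pP d (((aC p : Kˣ) : K) * t)
  rw [d.tor_pP]
  congr 2
  simp [aC]

theorem gt_gb (p : Kˣ × Kˣ) (t u : K) : d.gt p * d.gb t u * (d.gt p)⁻¹ =
    d.gb ((d.bC p : Kˣ) * t) ((d.bC p : Kˣ) * d.f (d.bC p : Kˣ) * u) := by
  apply Subtype.ext
  show tor RootF4T.R chevF4 (d.cOf p) * bP d t u * (tor RootF4T.R chevF4 (d.cOf p))⁻¹ =
    bP d (((d.bC p : Kˣ) : K) * t) (((d.bC p : Kˣ) : K) * d.f (d.bC p : Kˣ) * u)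
  rw [d.tor_bP]
  have e1 : ((d.bC p : Kˣ) : K) = (p.2 : K) ^ 2 * ((d.f p.2) ^ 2)⁻¹ * (p.1 : K)⁻¹ := by
    simp [bC, fU_val]
  have hy : (p.1 : K) ≠ 0 := p.1.ne_zero
  have hz : (p.2 : K) ≠ 0 := p.2.ne_zero
  have hY : d.f (p.1 : K) ≠ 0 := by
    rw [Ne, map_eq_zero]
    exact hy
  have hZ : d.f (p.2 : K) ≠ 0 := by
    rw [Ne, map_eq_zero]
    exact hz
  have e2 : ((d.bC p : Kˣ) : K) * d.f (d.bC p : Kˣ) = (p.2 : K) * (d.f p.1)⁻¹ * (p.1 : K)⁻¹ := by
    rw [e1]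
    simp only [map_mul, map_pow, map_inv₀, d.hθ]
    field_simp
  rw [e2, e1]

/-- The characters are onto. -/
theorem exists_p (a b : Kˣ) : ∃ p, aC p = a ∧ d.bC p = b := by
  let Φ : (Kˣ × Kˣ) →* (Kˣ × Kˣ) := MonoidHom.mk' (fun p => (aC p, d.bC p)) (by
    intro p q
    apply Prod.ext
    · show aC (p * q) = aC p * aC q
      simp only [aC, Prod.fst_mul, Prod.snd_mul, mul_pow, mul_inv]
      exact mul_mul_mul_comm _ _ _ _
    · show d.bC (p * q) = d.bC p * d.bC q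
      simp only [bC, Prod.fst_mul, Prod.snd_mul, mul_pow, mul_inv, map_mul]
      simp only [mul_comm, mul_left_comm, mul_assoc])
  have hinj : Function.Injective Φ := by
    rw [injective_iff_map_eq_one]
    rintro ⟨y, z⟩ h
    have h1 : y ^ 2 * z⁻¹ = 1 := congrArg Prod.fst h
    have h2 : z ^ 2 * ((d.fU z) ^ 2)⁻¹ * y⁻¹ = 1 := congrArg Prod.snd h
    have hz : y ^ 2 = z := mul_inv_eq_one.1 h1
    subst hz
    have h3 : (y ^ 2) ^ 2 = y * (d.fU (y ^ 2)) ^ 2 := mul_inv_eq_iff_eq_mul.1 (mul_inv_eq_one.1 h2)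
    rw [map_pow] at h3
    set Y := d.fU y with hY
    have h4 : y ^ 3 = Y ^ 4 := by
      have e1 : y * y ^ 3 = y * Y ^ 4 := by
        calc y * y ^ 3 = (y ^ 2) ^ 2 := by group
          _ = y * (Y ^ 2) ^ 2 := h3
          _ = y * Y ^ 4 := by group
      exact mul_left_cancel e1
    have h5 : Y ^ 3 = y ^ 2 := by
      have e1 := congrArg d.fU h4
      rw [map_pow, map_pow, ← hY] at e1
      rw [e1]
      calc (d.fU Y) ^ 4 = ((d.fU Y) ^ 2) ^ 2 := by group
        _ = y ^ 2 := by rw [hY, d.fU_sq]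
    have h6 : y = 1 := by
      have e1 : y * y ^ 8 = 1 * y ^ 8 := by
        calc y * y ^ 8 = (y ^ 3) ^ 3 := by group
          _ = (Y ^ 4) ^ 3 := by rw [h4]
          _ = (Y ^ 3) ^ 4 := by group
          _ = (y ^ 2) ^ 4 := by rw [h5]
          _ = 1 * y ^ 8 := by group
      exact mul_right_cancel e1
    subst h6
    simp
  obtain ⟨p, hp⟩ := Finite.surjective_of_injective hinj (a, b)
  exact ⟨p, congrArg Prod.fst hp, congrArg Prod.snd hp⟩

/-- The norm-like map is onto. -/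
theorem exists_w (w : Kˣ) : ∃ b : Kˣ, b * d.fU b = w := by
  let Ψ : Kˣ →* Kˣ := MonoidHom.mk' (fun y => y * d.fU y) (by
    intro a b
    simp only [map_mul, mul_comm, mul_left_comm, mul_assoc])
  have hinj : Function.Injective Ψ := by
    rw [injective_iff_map_eq_one]
    intro y h
    have h1 : y * d.fU y = 1 := h
    have h2 : d.fU y = y⁻¹ := eq_inv_of_mul_eq_one_right h1
    have h3 := d.fU_sq y
    rw [h2, map_inv, h2, inv_inv] at h3
    rw [sq] at h3
    exact mul_eq_left.1 h3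
  obtain ⟨b, hb⟩ := Finite.surjective_of_injective hinj w
  exact ⟨b, hb⟩

omit [Fintype K] in
theorem sig_f (σ : K ≃+* K) (t : K) : σ (d.f t) = d.f (σ t) := by
  rw [d.hf, d.hf, map_pow]

theorem gt_mem_diag (p : Kˣ × Kˣ) : (d.gt p).1 ∈ chevF4.diagonalSubgroup K :=
  (hF.mem_diagonal_iff).2 ⟨_, rfl⟩

/-- The elements of `H₁`. -/
theorem exists_gt {x : ↥(d.twG).G1} (hx : x.1 ∈ chevF4.diagonalSubgroup K) : ∃ p, x = d.gt p := by
  obtain ⟨c, hc⟩ := hF.mem_diagonal_iff.1 hx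
  have h1 : d.τ.s (tor RootF4T.R chevF4 c) = tor RootF4T.R chevF4 c := by
    rw [← hc]
    exact (d.twG).G1_fix _ x.2
  rw [d.Fc_def] at h1
  have h2 := tor_inj' h1
  refine ⟨(c i3, c i2), Subtype.ext ?_⟩
  rw [hc]
  show tor RootF4T.R chevF4 c = tor RootF4T.R chevF4 (d.cOf (c i3, c i2))
  rw [← d.eq_cOf h2]

/-- The image of an element of `H₁`. -/
theorem nrm_gt {θ : ↥(d.twG).G1 ≃* ↥(d.twG).G1} (hθ : Nrm d.twG θ) (p : Kˣ × Kˣ) : ∃ p', θ (d.gt p) = d.gt p' :=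
  d.exists_gt (nrm_map_diag d.twG d.hA hθ (d.gt_mem_diag p))

/-- The form of an automorphism on the pairs. -/
theorem nrm_form0 {θ : ↥(d.twG).G1 ≃* ↥(d.twG).G1} (hθ : Nrm d.twG θ) :
    ∃ (c₀ : Kˣ) (σ₀ : K ≃+* K), ∀ t, θ (d.gp t) = d.gp ((c₀ : K) * σ₀ t) := by
  choose ψ hψ using d.nrm_gp hθ
  have hadd : ∀ s t, ψ (s + t) = ψ s + ψ t := by
    intro s t
    apply d.gp_inj
    rw [← hψ, ← d.gp_mul, map_mul, hψ, hψ, d.gp_mul]
  have hinj : Function.Injective ψ := by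
    intro s t h
    apply d.gp_inj
    apply θ.injective
    rw [hψ, hψ, h]
  have hmul : ∀ a : K, a ≠ 0 → ∃ a', ∀ t, ψ (a * t) = a' * ψ t := by
    intro a ha
    obtain ⟨p, hp, -⟩ := d.exists_p (Units.mk0 a ha) 1
    obtain ⟨p', hp'⟩ := d.nrm_gt hθ p
    refine ⟨(aC p' : Kˣ), fun t => ?_⟩
    apply d.gp_inj
    have e1 : ((aC p : Kˣ) : K) = a := by rw [hp]; rfl
    have e2 := d.gt_gp p t
    rw [e1] at e2
    rw [← hψ, ← e2, map_mul, map_mul, map_inv, hp', hψ, d.gt_gp]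
  obtain ⟨σ, h1, h2⟩ := exists_ringEquiv ψ hadd hinj hmul
  refine ⟨Units.mk0 _ h1, σ, fun t => ?_⟩
  rw [hψ, h2]
  rfl


theorem gb_sq (t u : K) : d.gb t u * d.gb t u = d.gb 0 (d.f t * t) := by
  rw [d.gb_mul]
  have h1 : t + t = 0 := by linear_combination t * d.h2
  have h2 : u + u = 0 := by linear_combination u * d.h2
  rw [h1, h2, zero_add]

theorem gb_split (t u : K) : d.gb t 0 * d.gb 0 u = d.gb t u := by
  rw [d.gb_mul]
  simp

/-- The form of an automorphism on the classes. -/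
theorem nrm_form1 (hy : ∃ y : Kˣ, d.f y * y ≠ 1) {θ : ↥(d.twG).G1 ≃* ↥(d.twG).G1} (hθ : Nrm d.twG θ) :
    ∃ (c₁ : Kˣ) (σ₁ : K ≃+* K), ∀ t u, θ (d.gb t u) = d.gb ((c₁ : K) * σ₁ t) ((c₁ : K) * d.f (c₁ : K) * σ₁ u) := by
  choose A' B' hAB using d.nrm_gb hθ
  have h2 := d.h2
  have hf0 : d.f (0 : K) = 0 := map_zero _
  have hf1 : d.f (1 : K) = 1 := map_one _
  have hff : ∀ a : K, d.f a * a = 0 → a = 0 := by
    intro a ha
    rcases mul_eq_zero.1 ha with h | h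
    · exact (map_eq_zero _).1 h
    · exact h
  have hZ0 : ∀ u, A' 0 u = 0 := by
    intro u
    apply hff
    have e1 := d.gb_sq 0 u
    rw [hf0, zero_mul, ← mul_one (d.gb 0 0)] at e1
    have e2 : d.gb 0 u * d.gb 0 u = 1 := by
      rw [e1, d.gb_zero, mul_one]
    have e3 := congrArg θ e2
    rw [map_mul, map_one, hAB, d.gb_sq, ← d.gb_zero] at e3
    exact (d.gb_inj e3).2
  let β : K → K := fun u => B' 0 u
  let α : K → K := fun t => A' t 0
  let γ : K → K := fun t => B' t 0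
  have hβ : ∀ u, θ (d.gb 0 u) = d.gb 0 (β u) := by
    intro u
    rw [hAB, hZ0]
  have hα : ∀ t, θ (d.gb t 0) = d.gb (α t) (γ t) := fun t => hAB t 0
  have hβadd : ∀ u v, β (u + v) = β u + β v := by
    intro u v
    have e : d.gb 0 u * d.gb 0 v = d.gb 0 (u + v) := by
      rw [d.gb_mul, hf0, zero_mul, add_zero, add_zero]
    have e3 := congrArg θ e
    rw [map_mul, hβ, hβ, hβ, d.gb_mul, hf0, zero_mul, add_zero, add_zero] at e3
    exact (d.gb_inj e3).2.symm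
  have hβinj : Function.Injective β := by
    intro u v h
    have e : θ (d.gb 0 u) = θ (d.gb 0 v) := by
      rw [hβ, hβ, h]
    exact (d.gb_inj (θ.injective e)).2
  have hstar : ∀ t t', α (t + t') = α t + α t' ∧
      γ (t + t') + β (d.f t * t') = γ t + γ t' + d.f (α t) * α t' := by
    intro t t'
    have e : d.gb t 0 * d.gb t' 0 = d.gb (t + t') 0 * d.gb 0 (d.f t * t') := by
      rw [d.gb_split, d.gb_mul, add_zero, zero_add]
    have e3 := congrArg θ e
    rw [map_mul, map_mul, hα, hα, hα, hβ, d.gb_mul, d.gb_mul, mul_zero, add_zero, add_zero] at e3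
    obtain ⟨e4, e5⟩ := d.gb_inj e3
    exact ⟨e4.symm, e5.symm⟩
  have hα0 : ∀ s, α s = 0 → s = 0 := by
    intro s hs
    apply hff
    have e1 : θ (d.gb s 0 * d.gb s 0) = 1 := by
      rw [map_mul, hα, hs, d.gb_sq, hf0, zero_mul, d.gb_zero]
    rw [← map_one θ] at e1
    have e2 := θ.injective e1
    rw [d.gb_sq, ← d.gb_zero] at e2
    exact (d.gb_inj e2).2
  have hαinj : Function.Injective α := by
    intro s t h
    have e1 := (hstar s t).1
    have e2 : α s + α t = 0 := by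
      rw [h]
      linear_combination (α t) * h2
    rw [e2] at e1
    have e3 := hα0 _ e1
    linear_combination e3 - t * h2
  have hαγ : ∀ p p', θ (d.gt p) = d.gt p' → ∀ t, α ((d.bC p : Kˣ) * t) = (d.bC p' : Kˣ) * α t ∧
      γ ((d.bC p : Kˣ) * t) = (d.bC p' : Kˣ) * d.f (d.bC p' : Kˣ) * γ t := by
    intro p p' hp t
    have e := d.gt_gb p t 0
    rw [mul_zero] at e
    have e3 := congrArg θ e
    rw [map_mul, map_mul, map_inv, hp, hα, hα, d.gt_gb] at e3
    obtain ⟨e4, e5⟩ := d.gb_inj e3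
    exact ⟨e4.symm, e5.symm⟩
  have hβt : ∀ p p', θ (d.gt p) = d.gt p' → ∀ u, β ((d.bC p : Kˣ) * d.f (d.bC p : Kˣ) * u) = (d.bC p' : Kˣ) * d.f (d.bC p' : Kˣ) * β u := by
    intro p p' hp u
    have e := d.gt_gb p 0 u
    rw [mul_zero] at e
    have e3 := congrArg θ e
    rw [map_mul, map_mul, map_inv, hp, hβ, hβ, d.gt_gb] at e3
    exact (d.gb_inj e3).2.symm
  have hαmul : ∀ a : K, a ≠ 0 → ∃ a', ∀ t, α (a * t) = a' * α t := by
    intro a ha
    obtain ⟨p, -, hp⟩ := d.exists_p 1 (Units.mk0 a ha)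
    obtain ⟨p', hp'⟩ := d.nrm_gt hθ p
    refine ⟨(d.bC p' : Kˣ), fun t => ?_⟩
    have e1 := (hαγ p p' hp' t).1
    have e2 : ((d.bC p : Kˣ) : K) = a := by rw [hp]; rfl
    rwa [e2] at e1
  obtain ⟨σ, hα1, hσ⟩ := exists_ringEquiv α (fun s t => (hstar s t).1) hαinj hαmul
  have hb' : ∀ p p', θ (d.gt p) = d.gt p' → ((d.bC p' : Kˣ) : K) = σ (d.bC p : Kˣ) := by
    intro p p' hp
    have e1 := (hαγ p p' hp 1).1
    rw [mul_one, hσ] at e1
    have e2 := mul_left_cancel₀ hα1 (e1.trans (mul_comm _ _))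
    exact e2.symm
  have hβmul : ∀ w : K, w ≠ 0 → ∀ u, β (w * u) = σ w * β u := by
    intro w hw u
    obtain ⟨b, hb⟩ := d.exists_w (Units.mk0 w hw)
    obtain ⟨p, -, hp⟩ := d.exists_p 1 b
    obtain ⟨p', hp'⟩ := d.nrm_gt hθ p
    have e1 := hβt p p' hp' u
    have e2 : ((b : K)) * d.f (b : K) = w := by
      have := congrArg (fun x : Kˣ => (x : K)) hb
      simpa [fU_val] using this
    rw [hb' p p' hp', hp, e2, ← d.sig_f, ← map_mul, e2] at e1
    exact e1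
  have hβ0 : β 0 = 0 := by
    have := hβadd 0 0
    rw [add_zero] at this
    exact left_eq_add.1 this
  have hγ0 : γ 0 = 0 := by
    have e1 := hα 0
    rw [d.gb_zero, map_one, ← d.gb_zero] at e1
    exact (d.gb_inj e1).2.symm
  have hβ' : ∀ u, β u = σ u * β 1 := by
    intro u
    by_cases hu : u = 0
    · rw [hu, hβ0, map_zero, zero_mul]
    · have := hβmul u hu 1
      rwa [mul_one] at this
  have hγ' : ∀ t, γ t = σ t * d.f (σ t) * γ 1 := by
    intro t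
    by_cases ht : t = 0
    · rw [ht, hγ0, map_zero, zero_mul, zero_mul]
    · obtain ⟨p, -, hp⟩ := d.exists_p 1 (Units.mk0 t ht)
      obtain ⟨p', hp'⟩ := d.nrm_gt hθ p
      have e1 := (hαγ p p' hp' 1).2
      rw [mul_one, hb' p p' hp', hp] at e1
      exact e1
  -- the equation
  have hE : ∀ t, (σ t + 1) * (d.f (σ t) + 1) * γ 1 + d.f (σ t) * β 1 =
      σ t * d.f (σ t) * γ 1 + γ 1 + d.f (α 1) * d.f (σ t) * α 1 := by
    intro t
    have e1 := (hstar t 1).2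
    rw [mul_one, hγ' (t + 1), hβ' (d.f t), hγ' t, hσ t] at e1
    rw [map_add, map_add, map_one, hf1, d.sig_f, map_mul] at e1
    exact e1
  have hσ1 : σ 1 = 1 := map_one σ
  have hκ : β 1 = d.f (α 1) * α 1 := by
    have e := hE 1
    rw [hσ1, hf1] at e
    linear_combination e - (γ 1) * h2
  have hc : ∀ t, γ 1 * (σ t + d.f (σ t)) = 0 := by
    intro t
    linear_combination hE t - d.f (σ t) * hκ
  obtain ⟨y, hy'⟩ := hy
  have hne : (y : K) + d.f (y : K) ≠ 0 := by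
    intro h
    have e1 : d.f (y : K) = y := by linear_combination h - (y : K) * h2
    have e2 := d.hθ (y : K)
    rw [e1, e1] at e2
    have e3 : (y : K) = 1 := by
      have := y.ne_zero
      rw [sq] at e2
      exact mul_eq_left₀ this |>.1 e2
    apply hy'
    rw [e1, e3]
    ring
  have hc0 : γ 1 = 0 := by
    have e1 := hc (σ.symm (y : K))
    rw [RingEquiv.apply_symm_apply] at e1
    rcases mul_eq_zero.1 e1 with h | h
    · exact h
    · exact absurd h hne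
  refine ⟨Units.mk0 (α 1) hα1, σ, fun t u => ?_⟩
  rw [← d.gb_split, map_mul, hα, hβ, d.gb_mul, mul_zero, add_zero, add_zero, hσ t, hγ' t, hc0, mul_zero, zero_add, hβ' u, hκ]
  show d.gb (α 1 * σ t) (σ u * (d.f (α 1) * α 1)) = d.gb (α 1 * σ t) (α 1 * d.f (α 1) * σ u)
  congr 1
  ring

end Dat

end Cfsg.Agent.Lib.Chev.TwF4
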