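import Cfsg.Agent.Lib.Chev.TwG2K

set_option linter.style.haveILetI false
set_option linter.unusedSectionVars false

/-!
# The Ree groups `²G₂`: the smallest degree of a non-trivial complex representation
-/

namespace Cfsg.Agent.Lib.Chev.TwG2

open Cfsg.Agent.Lib.Chev Cfsg.Lie Equiv Module
open Cfsg.Agent.Lib
open Cfsg.Agent.Lib.Chev.ReeGen
open Cfsg.Agent.Lib.Chev.SL2 (n0)

namespace Fourier

variable {K : Type*} [Field K] [Fintype K] [DecidableEq K] {𝔸 : Type*} [Ring 𝔸] [Algebra ℂ 𝔸]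

/-- The spectral projections of a representation of `K × K`. -/
noncomputable def P (ψ : AddChar K ℂ) (E : K → K → 𝔸) (a b : K) : 𝔸 :=
  (((Fintype.card K : ℂ) ^ 2)⁻¹) • ∑ u : K, ∑ v : K, ψ (-(a * u + b * v)) • E u v

variable {ψ : AddChar K ℂ} {E : K → K → 𝔸}

omit [DecidableEq K] [Algebra ℂ 𝔸] in
theorem sum2_conj (F : K → K → 𝔸) {α β : K} (γ : K) (hα : α ≠ 0) (hβ : β ≠ 0) :
    (∑ u : K, ∑ v : K, F u v) = ∑ u : K, ∑ v : K, F (α * u) (β * v + γ * u) := by
  rw [← Equiv.sum_comp (Equiv.mulLeft₀ α hα)]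
  refine Finset.sum_congr rfl (fun u _ => ?_)
  exact (Equiv.sum_comp ((Equiv.mulLeft₀ β hβ).trans (Equiv.addRight (γ * u))) (fun v => F (α * u) v)).symm

omit [DecidableEq K] [Algebra ℂ 𝔸] in
theorem sum2_shift (F : K → K → 𝔸) (u₀ v₀ : K) :
    (∑ u : K, ∑ v : K, F u v) = ∑ u : K, ∑ v : K, F (u₀ + u) (v₀ + v) := by
  rw [← Equiv.sum_comp (Equiv.addLeft u₀)]
  refine Finset.sum_congr rfl (fun u _ => ?_)
  exact (Equiv.sum_comp (Equiv.addLeft v₀) (fun v => F (u₀ + u) v)).symm

omit [DecidableEq K] in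
theorem E_P (hE : ∀ u v u' v', E u v * E u' v' = E (u + u') (v + v')) (u₀ v₀ a b : K) :
    E u₀ v₀ * P ψ E a b = ψ (a * u₀ + b * v₀) • P ψ E a b := by
  unfold P
  rw [mul_smul_comm, smul_comm]
  congr 1
  conv_rhs => rw [sum2_shift _ u₀ v₀]
  simp only [Finset.mul_sum, Finset.smul_sum, mul_smul_comm, hE, smul_smul]
  refine Finset.sum_congr rfl (fun u _ => Finset.sum_congr rfl (fun v _ => ?_))
  rw [← AddChar.map_add_eq_mul]
  congr 2
  ring

theorem sum_char (hψ : ψ.IsPrimitive) (c : K) : (∑ x : K, ψ (c * x)) = if c = 0 then (Fintype.card K : ℂ) else 0 := by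
  have h := AddChar.sum_mulShift c hψ
  have e : (∑ x : K, ψ (c * x)) = ∑ x : K, ψ (x * c) := Finset.sum_congr rfl (fun x _ => by rw [mul_comm])
  rw [e, h]
  split_ifs <;> simp

theorem P_mul [Fact (1 < Fintype.card K)] (hψ : ψ.IsPrimitive) (hE : ∀ u v u' v', E u v * E u' v' = E (u + u') (v + v')) (a b a' b' : K) :
    P ψ E a b * P ψ E a' b' = if a = a' ∧ b = b' then P ψ E a' b' else 0 := by
  have hq : (Fintype.card K : ℂ) ≠ 0 := by
    have := (Fact.out : 1 < Fintype.card K)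
    exact_mod_cast (by omega : Fintype.card K ≠ 0)
  have h1 : P ψ E a b * P ψ E a' b' = (((Fintype.card K : ℂ) ^ 2)⁻¹) •
      ∑ u : K, ∑ v : K, (ψ ((a' - a) * u) * ψ ((b' - b) * v)) • P ψ E a' b' := by
    conv_lhs => rw [P]
    rw [smul_mul_assoc, Finset.sum_mul]
    congr 1
    refine Finset.sum_congr rfl (fun u _ => ?_)
    rw [Finset.sum_mul]
    refine Finset.sum_congr rfl (fun v _ => ?_)
    rw [smul_mul_assoc, E_P hE, smul_smul, ← AddChar.map_add_eq_mul, ← AddChar.map_add_eq_mul]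
    congr 2
    ring
  rw [h1]
  simp only [← Finset.sum_smul, ← Finset.mul_sum, ← Finset.sum_mul]
  rw [sum_char hψ, sum_char hψ, smul_smul]
  by_cases h2 : a = a'
  · by_cases h3 : b = b'
    · subst h2 h3
      simp only [sub_self, if_true, and_self]
      rw [← pow_two, inv_mul_cancel₀ (pow_ne_zero 2 hq), one_smul]
    · have h4 : b' - b ≠ 0 := fun e => h3 (sub_eq_zero.1 e).symm
      rw [if_neg h4, if_neg (show ¬ (a = a' ∧ b = b') from fun e => h3 e.2)]
      simp
  · have h4 : a' - a ≠ 0 := fun e => h2 (sub_eq_zero.1 e).symm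
    rw [if_neg h4, if_neg (show ¬ (a = a' ∧ b = b') from fun e => h2 e.1)]
    simp

theorem P_sum [Fact (1 < Fintype.card K)] (hψ : ψ.IsPrimitive) (h1 : E 0 0 = 1) : (∑ a : K, ∑ b : K, P ψ E a b) = 1 := by
  have hq : (Fintype.card K : ℂ) ≠ 0 := by
    have := (Fact.out : 1 < Fintype.card K)
    exact_mod_cast (by omega : Fintype.card K ≠ 0)
  have e : (∑ a : K, ∑ b : K, P ψ E a b) = (((Fintype.card K : ℂ) ^ 2)⁻¹) •
      ∑ u : K, ∑ v : K, ((∑ a : K, ψ (-u * a)) * (∑ b : K, ψ (-v * b))) • E u v := by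
    simp only [P, ← Finset.smul_sum]
    congr 1
    calc (∑ a : K, ∑ b : K, ∑ u : K, ∑ v : K, ψ (-(a * u + b * v)) • E u v)
        = ∑ a : K, ∑ u : K, ∑ b : K, ∑ v : K, ψ (-(a * u + b * v)) • E u v := Finset.sum_congr rfl (fun a _ => Finset.sum_comm)
      _ = ∑ u : K, ∑ a : K, ∑ b : K, ∑ v : K, ψ (-(a * u + b * v)) • E u v := Finset.sum_comm
      _ = ∑ u : K, ∑ a : K, ∑ v : K, ∑ b : K, ψ (-(a * u + b * v)) • E u v :=
          Finset.sum_congr rfl (fun u _ => Finset.sum_congr rfl (fun a _ => Finset.sum_comm))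
      _ = ∑ u : K, ∑ v : K, ∑ a : K, ∑ b : K, ψ (-(a * u + b * v)) • E u v := Finset.sum_congr rfl (fun u _ => Finset.sum_comm)
      _ = _ := by
          refine Finset.sum_congr rfl (fun u _ => Finset.sum_congr rfl (fun v _ => ?_))
          rw [Finset.sum_mul_sum, Finset.sum_smul]
          refine Finset.sum_congr rfl (fun a _ => ?_)
          rw [Finset.sum_smul]
          refine Finset.sum_congr rfl (fun b _ => ?_)
          rw [← AddChar.map_add_eq_mul]
          have e3 : -(a * u + b * v) = -u * a + -v * b := by ring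
          rw [e3]
  rw [e]
  simp only [sum_char hψ, neg_eq_zero]
  rw [Finset.sum_eq_single 0, Finset.sum_eq_single 0]
  · simp only [if_true, h1]
    rw [← pow_two, smul_smul, inv_mul_cancel₀ (pow_ne_zero 2 hq), one_smul]
  · intro v _ hv
    simp [hv]
  · simp
  · intro u _ hu
    simp [hu]
  · simp

omit [DecidableEq K] in
/-- Conjugating the projections. -/
theorem conj_P {G₁ G₂ : 𝔸} {α β γ : K} (hα : α ≠ 0) (hβ : β ≠ 0) (h : ∀ u v, G₁ * E u v * G₂ = E (α * u) (β * v + γ * u)) (a b : K) :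
    G₁ * P ψ E a b * G₂ = P ψ E ((a - b * γ / β) / α) (b / β) := by
  unfold P
  rw [mul_smul_comm, smul_mul_assoc]
  congr 1
  rw [sum2_conj (fun u v => ψ (-((a - b * γ / β) / α * u + b / β * v)) • E u v) γ hα hβ]
  simp only [Finset.mul_sum, Finset.sum_mul, mul_smul_comm, smul_mul_assoc, h]
  refine Finset.sum_congr rfl (fun u _ => Finset.sum_congr rfl (fun v _ => ?_))
  congr 2
  field_simp
  ring

end Fourier

variable {K : Type*} [Field K] [Fintype K] {m : ℕ}

section irr

variable {k : ℕ} {H : Type*} [Group H] (ρ : Representation ℂ H (Fin k → ℂ))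

omit [Group H] in
/-- A trivial representation of an irreducible representation has dimension at most one. -/
theorem not_trivial_of_irr [Monoid H] {ρ : Representation ℂ H (Fin k → ℂ)} (hirr : ρ.IsIrreducible) (hk : 2 ≤ k) : ¬ ∀ g, ρ g = 1 := by
  intro h
  let i₀ : Fin k := ⟨0, by omega⟩
  let i₁ : Fin k := ⟨1, by omega⟩
  let e₀ : Fin k → ℂ := Pi.single i₀ 1
  let S : Subrepresentation ρ := ⟨Submodule.span ℂ {e₀}, by
    intro g v hv
    rw [h g]
    exact hv⟩
  have h0 : e₀ ∈ S.toSubmodule := Submodule.mem_span_singleton_self e₀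
  rcases hirr.eq_bot_or_eq_top S with hS | hS
  · have h1 : e₀ ∈ (⊥ : Submodule ℂ (Fin k → ℂ)) := by
      rw [hS] at h0
      exact h0
    rw [Submodule.mem_bot] at h1
    have h2 := congrFun h1 i₀
    simp [e₀] at h2
  · have h1 : Pi.single i₁ (1 : ℂ) ∈ S.toSubmodule := by
      rw [hS]
      trivial
    obtain ⟨c, hc⟩ := Submodule.mem_span_singleton.1 h1
    have h2 := congrFun hc i₁
    have hne : i₁ ≠ i₀ := by
      intro e
      have := congrArg Fin.val e
      simp [i₁, i₀] at this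
    simp [e₀, Pi.single_eq_of_ne hne] at h2

end irr

namespace Dat

variable (R : Ree K m) (d : Dat K (3 ^ m))

local notation "G" => Gm K m

omit R in
theorem wW_zero_mul' (u v u' v' : K) : d.wW 0 u v * d.wW 0 u' v' = d.wW 0 (u + u') (v + v') :=
  Subtype.ext (d.W_mul_zero _ _ _ _ _)

omit R in
theorem wW_conj_t (t u v : K) : d.wW t 0 0 * d.wW 0 u v * (d.wW t 0 0)⁻¹ = d.wW 0 u (v + t * u) := by
  apply mul_inv_eq_of_eq_mul
  apply Subtype.ext
  show W (3 ^ m) t 0 0 * W (3 ^ m) 0 u v = W (3 ^ m) 0 u (v + t * u) * W (3 ^ m) t 0 0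
  rw [d.W_mul_zero, d.W_zero_mul]
  congr 1
  ring

theorem wW_conj_y (y : Kˣ) (u v : K) : d.tH R.hs y * d.wW 0 u v * (d.tH R.hs y)⁻¹ = d.wW 0 ((d.f y) ^ 3 * (y : K)⁻¹ * u) ((y : K) * v) := by
  apply Subtype.ext
  have h := d.tor_W y 0 u v
  rw [mul_zero] at h
  exact h

section rep

variable {k : ℕ} (ρ : Representation ℂ (Gm K m) (Fin k → ℂ))

/-- The action of the group of order `q²`. -/
noncomputable def Ev (u v : K) : Module.End ℂ (Fin k → ℂ) := ρ (d.wW 0 u v)

omit R in
theorem Ev_mul (u v u' v' : K) : d.Ev ρ u v * d.Ev ρ u' v' = d.Ev ρ (u + u') (v + v') := by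
  unfold Ev
  rw [← map_mul, d.wW_zero_mul']

omit R in
theorem Ev_one : d.Ev ρ (0 : K) 0 = 1 := by
  unfold Ev
  rw [d.wW_one, map_one]

omit R d in
theorem trace_conj (g : G) (X : Module.End ℂ (Fin k → ℂ)) :
    LinearMap.trace ℂ (Fin k → ℂ) (ρ g * X * ρ g⁻¹) = LinearMap.trace ℂ (Fin k → ℂ) X := by
  rw [mul_assoc, LinearMap.trace_mul_comm, mul_assoc, ← map_mul, inv_mul_cancel, map_one, mul_one]

include R d in
/-- The main argument. -/
theorem rep_main (hirr : ρ.IsIrreducible) (hk : 2 ≤ k) : Fintype.card K ^ 2 - Fintype.card K + 1 ≤ k := by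
  classical
  haveI := d.finite_G1
  have hq := R.q_ge
  haveI : Fact (1 < Fintype.card K) := ⟨by omega⟩
  have hq0 : (Fintype.card K : ℂ) ≠ 0 := by
    exact_mod_cast (by omega : Fintype.card K ≠ 0)
  obtain ⟨ψ, hψ1⟩ : ∃ ψ : AddChar K ℂ, ψ 1 ≠ 1 := AddChar.exists_apply_ne_zero.2 one_ne_zero
  have hψ : ψ.IsPrimitive := AddChar.IsPrimitive.of_ne_one (by
    rintro rfl
    exact hψ1 (AddChar.one_apply _))
  have hE := d.Ev_mul ρ
  have hE1 := d.Ev_one ρ
  set E := d.Ev ρ with hEdef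
  set P := Fourier.P ψ E with hPdef
  have hPm : ∀ a b a' b', P a b * P a' b' = if a = a' ∧ b = b' then P a' b' else 0 := fun a b a' b' => Fourier.P_mul hψ hE a b a' b'
  have hPs : (∑ a : K, ∑ b : K, P a b) = 1 := Fourier.P_sum hψ hE1
  have hPi : ∀ a b, IsIdempotentElem (P a b) := by
    intro a b
    have := hPm a b a b
    simpa [IsIdempotentElem] using this
  -- the ranks
  let n : K → K → ℕ := fun a b => finrank ℂ (LinearMap.range (P a b))
  have htr : ∀ a b, LinearMap.trace ℂ (Fin k → ℂ) (P a b) = (n a b : ℂ) := fun a b =>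
    (LinearMap.IsIdempotentElem.isProj_range _ (hPi a b)).trace
  have hconj : ∀ (g : G) {α β γ : K}, α ≠ 0 → β ≠ 0 → (∀ u v, g * d.wW 0 u v * g⁻¹ = d.wW 0 (α * u) (β * v + γ * u)) →
      ∀ a b, ρ g * P a b * ρ g⁻¹ = P ((a - b * γ / β) / α) (b / β) := by
    intro g α β γ hα hβ h a b
    apply Fourier.conj_P hα hβ
    intro u v
    show ρ g * ρ (d.wW 0 u v) * ρ g⁻¹ = ρ (d.wW 0 (α * u) (β * v + γ * u))
    rw [← h, map_mul, map_mul]
  have hnconj : ∀ (g : G) {α β γ : K}, α ≠ 0 → β ≠ 0 → (∀ u v, g * d.wW 0 u v * g⁻¹ = d.wW 0 (α * u) (β * v + γ * u)) →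
      ∀ a b, n ((a - b * γ / β) / α) (b / β) = n a b := by
    intro g α β γ hα hβ h a b
    have h1 := congrArg (LinearMap.trace ℂ (Fin k → ℂ)) (hconj g hα hβ h a b)
    rw [trace_conj, htr, htr] at h1
    exact_mod_cast h1.symm
  have hn1 : ∀ a b, b ≠ 0 → n a b = n 0 1 := by
    intro a b hb
    have h1 := hnconj (d.wW (a / b) 0 0) (α := 1) (β := 1) (γ := a / b) one_ne_zero one_ne_zero (by
      intro u v
      rw [d.wW_conj_t, one_mul, one_mul]) a b
    have e1 : (a - b * (a / b) / 1) / 1 = 0 := by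
      field_simp
      ring
    have e2 : b / 1 = b := by simp
    rw [e1, e2] at h1
    rw [← h1]
    let y : Kˣ := Units.mk0 b hb
    have hfy : d.f (y : K) ≠ 0 := by simp
    have h2 := hnconj (d.tH R.hs y) (α := (d.f y) ^ 3 * (y : K)⁻¹) (β := (y : K)) (γ := 0)
      (mul_ne_zero (pow_ne_zero 3 hfy) (inv_ne_zero y.ne_zero)) y.ne_zero (by
        intro u v
        rw [d.wW_conj_y R, zero_mul, add_zero]) 0 b
    have e4 : ((0 : K) - b * 0 / (y : K)) / ((d.f y) ^ 3 * (y : K)⁻¹) = 0 := by simp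
    have e5 : b / (y : K) = 1 := div_self hb
    rw [e4, e5] at h2
    exact h2.symm
  have hzero : ∀ a b, n a b = 0 → P a b = 0 := by
    intro a b h
    exact LinearMap.range_eq_bot.1 (Submodule.finrank_eq_zero.1 h)
  -- the dimension formula
  have hkn : k = (∑ a : K, n a 0) + Fintype.card K * (Fintype.card K - 1) * n 0 1 := by
    have h0 : (k : ℂ) = ∑ a : K, ∑ b : K, (n a b : ℂ) := by
      have h1 := congrArg (LinearMap.trace ℂ (Fin k → ℂ)) hPs
      rw [LinearMap.trace_one, finrank_fin_fun, map_sum] at h1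
      rw [← h1]
      refine Finset.sum_congr rfl (fun a _ => ?_)
      rw [map_sum]
      exact Finset.sum_congr rfl (fun b _ => htr a b)
    have h1 : k = ∑ a : K, ∑ b : K, n a b := by exact_mod_cast h0
    have h2 : ∀ a : K, (∑ b : K, n a b) = n a 0 + (Fintype.card K - 1) * n 0 1 := by
      intro a
      rw [← Finset.add_sum_erase Finset.univ (n a) (Finset.mem_univ (0 : K))]
      congr 1
      rw [Finset.sum_congr rfl (fun b hb => hn1 a b (Finset.ne_of_mem_erase hb)), Finset.sum_const,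
        Finset.card_erase_of_mem (Finset.mem_univ _), Finset.card_univ, smul_eq_mul]
    rw [h1, Finset.sum_congr rfl (fun a _ => h2 a), Finset.sum_add_distrib, Finset.sum_const, Finset.card_univ, smul_eq_mul]
    ring
  -- the representation is not trivial on the centre of `U`
  have hn1pos : n 0 1 ≠ 0 := by
    intro h0
    have hP0 : ∀ a b, b ≠ 0 → P a b = 0 := fun a b hb => hzero a b ((hn1 a b hb).trans h0)
    have hv : ∀ v, E 0 v = 1 := by
      intro v
      have h1 : E 0 v = ∑ a : K, ∑ b : K, E 0 v * P a b := by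
        simp only [← Finset.mul_sum]
        rw [hPs, mul_one]
      rw [h1, ← hPs]
      refine Finset.sum_congr rfl (fun a _ => Finset.sum_congr rfl (fun b _ => ?_))
      by_cases hb : b = 0
      · subst hb
        rw [Fourier.E_P hE]
        simp
        rfl
      · rw [hP0 a b hb, mul_zero]
    have hker : d.wW 0 0 1 ∈ (ρ : Gm K m →* Module.End ℂ (Fin k → ℂ)).ker := hv 1
    haveI : ((ρ : Gm K m →* Module.End ℂ (Fin k → ℂ)).ker).Normal := MonoidHom.normal_ker _
    have hs := R.simple d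
    rcases hs.eq_bot_or_eq_top_of_normal _ (inferInstance : ((ρ : Gm K m →* Module.End ℂ (Fin k → ℂ)).ker).Normal) with h | h
    · rw [h, Subgroup.mem_bot, ← d.wW_one] at hker
      exact one_ne_zero (d.wW_inj hker).2.2
    · apply not_trivial_of_irr hirr hk
      intro g
      have : g ∈ (ρ : Gm K m →* Module.End ℂ (Fin k → ℂ)).ker := by
        rw [h]
        trivial
      exact this
  obtain ⟨a', ha'⟩ : ∃ a', Fintype.card K = a' + 1 := ⟨Fintype.card K - 1, by omega⟩
  have hsq : Fintype.card K ^ 2 - Fintype.card K = Fintype.card K * (Fintype.card K - 1) := by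
    rw [ha']
    simp only [Nat.add_sub_cancel]
    have : (a' + 1) ^ 2 = (a' + 1) * a' + (a' + 1) := by ring
    rw [this, Nat.add_sub_cancel]
  rw [hsq]
  by_cases hr : (∑ a : K, n a 0) = 0
  · -- all traces of involutions vanish
    have hn0 : ∀ a, n a 0 = 0 := fun a => (Finset.sum_eq_zero_iff.1 hr) a (Finset.mem_univ _)
    have hneg : ∀ a b, ρ d.a₀ * P a b * ρ d.a₀⁻¹ = P a (-b) := by
      intro a b
      have h1 := hconj d.a₀ (α := 1) (β := -1) (γ := 0) one_ne_zero (neg_ne_zero.2 one_ne_zero) (by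
        intro u v
        rw [d.wW_conj, neg_zero, one_mul, zero_mul, add_zero, neg_one_mul]) a b
      have e1 : (a - b * 0 / (-1)) / 1 = a := by simp
      have e2 : b / (-1) = -b := by rw [div_neg, div_one]
      rw [h1, e1, e2]
    have htrA : LinearMap.trace ℂ (Fin k → ℂ) (ρ d.a₀) = 0 := by
      have h1 : ρ d.a₀ = ∑ a : K, ∑ b : K, ρ d.a₀ * P a b := by
        simp only [← Finset.mul_sum]
        rw [hPs, mul_one]
      rw [h1, map_sum]
      refine Finset.sum_eq_zero (fun a _ => ?_)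
      rw [map_sum]
      refine Finset.sum_eq_zero (fun b _ => ?_)
      by_cases hb : b = 0
      · subst hb
        rw [hzero a 0 (hn0 a), mul_zero, map_zero]
      · have e1 : ρ d.a₀ * P a b = ρ d.a₀ * P a b * P a b := by
          rw [mul_assoc, (hPi a b).eq]
        have hb2 : b ≠ -b := by
          intro h
          have h3 := d.h3
          have h2 : (2 : K) * b = 0 := by linear_combination h
          have h4 : b = 0 := by
            have h5 : (3 : K) * b = 0 := by rw [h3, zero_mul]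
            linear_combination h5 - h2
          exact hb h4
        have e2 : P a b * (ρ d.a₀ * P a b) = P a b * (ρ d.a₀ * P a b * ρ d.a₀⁻¹) * ρ d.a₀ := by
          have e3 : ρ d.a₀⁻¹ * ρ d.a₀ = 1 := by rw [← map_mul, inv_mul_cancel, map_one]
          calc P a b * (ρ d.a₀ * P a b) = P a b * (ρ d.a₀ * P a b * (ρ d.a₀⁻¹ * ρ d.a₀)) := by rw [e3, mul_one]
            _ = _ := by simp only [mul_assoc]
        rw [e1, LinearMap.trace_mul_comm, e2, hneg, hPm, if_neg (fun h => hb2 h.2), zero_mul, map_zero]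
    have htrI : ∀ g : G, g * g = 1 → g ≠ 1 → LinearMap.trace ℂ (Fin k → ℂ) (ρ g) = 0 := by
      intro g h1 h2
      obtain ⟨h, rfl⟩ := d.inv_conj R h1 h2
      have e : ρ (h * d.a₀ * h⁻¹) = ρ h * ρ d.a₀ * ρ h⁻¹ := by rw [map_mul ρ, map_mul ρ]
      rw [e, trace_conj, htrA]
    have hA2 : ρ d.a₀ * ρ d.a₀ = 1 := by rw [← map_mul, d.a₀_sq, map_one]
    have hB2 : ρ d.X2 * ρ d.X2 = 1 := by rw [← map_mul, d.X2_sq, map_one]
    have hAB : ρ d.a₀ * ρ d.X2 = ρ d.X2 * ρ d.a₀ := by rw [← map_mul, ← map_mul, d.a_X2]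
    have htrAB : LinearMap.trace ℂ (Fin k → ℂ) (ρ d.a₀ * ρ d.X2) = 0 := by
      rw [← map_mul]
      apply htrI
      · rw [mul_assoc, ← mul_assoc d.X2, ← d.a_X2, mul_assoc, d.X2_sq, mul_one, d.a₀_sq]
      · intro h
        have h1 : d.a₀ = d.X2 := by
          have h2 := eq_inv_of_mul_eq_one_left h
          rwa [inv_eq_of_mul_eq_one_left d.X2_sq] at h2
        exact d.a₀_not_psi R.hs R.hnm n0 h1.symm
    have htrB : LinearMap.trace ℂ (Fin k → ℂ) (ρ d.X2) = 0 := htrI _ d.X2_sq d.X2_ne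
    set A := ρ d.a₀ with hA
    set B := ρ d.X2 with hB
    let Q : Module.End ℂ (Fin k → ℂ) := (1 / 4 : ℂ) • ((1 + A) * (1 + B))
    have hXX : (1 + A) * (1 + A) = (2 : ℂ) • (1 + A) := by
      rw [mul_add, add_mul, add_mul, hA2, two_smul]
      simp only [mul_one, one_mul]
      abel
    have hYY : (1 + B) * (1 + B) = (2 : ℂ) • (1 + B) := by
      rw [mul_add, add_mul, add_mul, hB2, two_smul]
      simp only [mul_one, one_mul]
      abel
    have hXY : (1 + B) * (1 + A) = (1 + A) * (1 + B) := by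
      simp only [mul_add, add_mul, mul_one, one_mul, hAB]
      abel
    have hQ : IsIdempotentElem Q := by
      show Q * Q = Q
      simp only [Q, smul_mul_assoc, mul_smul_comm, smul_smul]
      have e : (1 + A) * (1 + B) * ((1 + A) * (1 + B)) = (4 : ℂ) • ((1 + A) * (1 + B)) := by
        calc (1 + A) * (1 + B) * ((1 + A) * (1 + B)) = (1 + A) * ((1 + B) * (1 + A)) * (1 + B) := by simp only [mul_assoc]
          _ = (1 + A) * ((1 + A) * (1 + B)) * (1 + B) := by rw [hXY]
          _ = ((1 + A) * (1 + A)) * ((1 + B) * (1 + B)) := by simp only [mul_assoc]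
          _ = _ := by
            rw [hXX, hYY, smul_mul_assoc, mul_smul_comm, smul_smul]
            norm_num
      rw [e, smul_smul]
      norm_num
    have htQ := (LinearMap.IsIdempotentElem.isProj_range _ hQ).trace
    have htQ2 : LinearMap.trace ℂ (Fin k → ℂ) Q = (k : ℂ) / 4 := by
      simp only [Q, map_smul, mul_add, add_mul, mul_one, one_mul, map_add, LinearMap.trace_one, finrank_fin_fun, htrA, htrB, htrAB, smul_eq_mul]
      ring
    have h4 : k = 4 * finrank ℂ (LinearMap.range Q) := by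
      rw [htQ2] at htQ
      have h5 : (k : ℂ) = 4 * (finrank ℂ (LinearMap.range Q) : ℂ) := by
        rw [← htQ]
        ring
      exact_mod_cast h5
    obtain ⟨c, hc⟩ := R.h8
    have hkn2 : k = Fintype.card K * (Fintype.card K - 1) * n 0 1 := by
      rw [hkn, hr, zero_add]
    have hne1 : n 0 1 ≠ 1 := by
      intro h1
      rw [h1, mul_one, hc] at hkn2
      have e : (8 * c + 3) * (8 * c + 3 - 1) = 4 * (16 * c * c + 10 * c + 1) + 2 := by
        have : 8 * c + 3 - 1 = 8 * c + 2 := by omega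
        rw [this]
        ring
      rw [e] at hkn2
      omega
    have hn2 : 2 ≤ n 0 1 := by omega
    have h3 := Nat.mul_le_mul_left (Fintype.card K * (Fintype.card K - 1)) hn2
    have h5 : 1 ≤ Fintype.card K * (Fintype.card K - 1) := Nat.mul_pos (by omega) (by omega)
    omega
  · have h1 : 1 ≤ n 0 1 := Nat.one_le_iff_ne_zero.2 hn1pos
    have h2 : 1 ≤ ∑ a : K, n a 0 := Nat.one_le_iff_ne_zero.2 hr
    have h3 := Nat.mul_le_mul_left (Fintype.card K * (Fintype.card K - 1)) h1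
    omega

end rep

end Dat

/-- S2343: the minimal degree of a non-trivial irreducible representation. -/
theorem main_S2343 (m : ℕ) (hm : 1 ≤ m) (hK : Fintype.card K = 3 ^ (2 * m + 1)) :
    (∀ (k : ℕ) (ρ : Representation ℂ (Cfsg.Lie.twistedG2 K (3 ^ m)) (Fin k → ℂ)), ρ.IsIrreducible → 2 ≤ k → (3 ^ (2 * m + 1)) ^ 2 - 3 ^ (2 * m + 1) + 1 ≤ k) := by
  intro k ρ hirr hk
  have R : Ree K m := ⟨hm, hK⟩
  obtain ⟨d⟩ := exists_dat hK
  rw [← hK]
  exact Dat.rep_main R d ρ hirr hk

end Cfsg.Agent.Lib.Chev.TwG2
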