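import Cfsg.Agent.Lib.ChevAut.SimpleRoot
import Cfsg.Agent.Lib.Chev.TwSCBN
import Cfsg.Agent.Lib.Chev.TwSCP

/-!
# Automorphisms of twisted groups: normalising, for a general system of classes
-/

set_option autoImplicit false
set_option linter.unusedSectionVars false
set_option linter.unusedVariables false
set_option linter.unnecessarySimpa false

namespace Cfsg.Agent.Lib.Chev.TwGen

open Cfsg.Lie Matrix Equiv Cfsg.Agent.Lib.Chev
open Cfsg.Agent.Lib.Chev.Full (cellS)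
open Cfsg.Agent.Lib.BNPair
open Cfsg.Agent.Lib.ChevFix2 (conj_U_of_borel)
open Cfsg.Agent.Lib.ChevAut (exists_conj_of_sylow exists_parabolic_map opp_simple)
open scoped Pointwise

variable {T : Tabs} {X : Extra} {R : RootTab} {D : ChevalleyDatum} {F : Type*} [Field F]
variable {hF : Full T X R D} {τ : Tw hF F} (A : TwG τ)

/-- An automorphism preserving `U` and `V`. -/
structure Nrm (A : TwG τ) (θ : ↥A.G1 ≃* ↥A.G1) : Prop where
  u : ∀ x : ↥A.G1, (θ x).1 ∈ D.posUnipotent F ↔ x.1 ∈ D.posUnipotent F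
  v : ∀ x : ↥A.G1, (θ x).1 ∈ D.negUnipotent F ↔ x.1 ∈ D.negUnipotent F

/-- The hypotheses giving the (B,N)-pair. -/
structure GHyp (A : TwG τ) : Prop where
  hcl : ∀ i < D.rank, ∀ j < D.rank, j ∈ A.cls i → A.nC j = A.nC i
  hne : ∀ i < D.rank, ∃ x ∈ UL D F (A.cls i), τ.s x = x ∧ x ≠ 1

variable [Fintype F]

/-- The (B,N)-pair. -/
noncomputable def bnP {A : TwG τ} (hA : GHyp A) : Cfsg.BNPair ↥A.G1 := A.bnPair hA.hcl hA.hne

include A

/-- Elements of `N₁` sending a simple root to a positive root. -/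
theorem conj_pos_of (n : ↥(D.monomialSubgroup F)) (hn : n.1 ∈ A.G1) {m : ℕ} (hm : m < D.rank)
    (hpos : R.N ≤ ((hF.rhoN F n ⟨D.simple m, hF.simple_lt hm⟩ : Fin D.nroots) : ℕ)) {x : GL D.Idx F} (hx : x ∈ UL D F (A.cls m)) :
    n.1 * x * n.1⁻¹ ∈ D.posUnipotent F := by
  have hposc : ∀ (m' : ℕ) (hm' : m' < D.rank), m' ∈ A.cls m →
      R.N ≤ ((hF.rhoN F n ⟨D.simple m', hF.simple_lt hm'⟩ : Fin D.nroots) : ℕ) := by
    intro m' hm' hmc'
    exact (A.orbit_sign (A.rho_fix n hn) hm hm' hmc').2 hpos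
  exact hF.conj_UL_mem_U (hF.pos_on_LQ hposc) hx

/-- Elements of `N₁` sending a simple root to a negative root. -/
theorem conj_neg_of (n : ↥(D.monomialSubgroup F)) (hn : n.1 ∈ A.G1) {m : ℕ} (hm : m < D.rank)
    (hneg : ((hF.rhoN F n ⟨D.simple m, hF.simple_lt hm⟩ : Fin D.nroots) : ℕ) < R.N) {x : GL D.Idx F} (hx : x ∈ UL D F (A.cls m))
    (hB : n.1 * x * n.1⁻¹ ∈ D.borelSubgroup F) : x = 1 := by
  have hnegc : ∀ (m' : ℕ) (hm' : m' < D.rank), m' ∈ A.cls m →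
      ((hF.rhoN F n ⟨D.simple m', hF.simple_lt hm'⟩ : Fin D.nroots) : ℕ) < R.N := by
    intro m' hm' hmc'
    have := A.orbit_sign (A.rho_fix n hn) hm hm' hmc'
    by_contra hc
    exact absurd (this.1 (not_lt.1 hc)) (not_le.2 hneg)
  exact hF.conj_UL_eq_one (fun r hr hL => hF.neg_on_LQ (hF.rhoN_mem_Wk n) hnegc r hr hL) hx hB

theorem mem_B_iff {hA : GHyp A} (x : ↥A.G1) :
    x ∈ (bnP hA).B ↔ x.1 ∈ D.borelSubgroup F :=
  ⟨fun hx => (Subgroup.mem_subgroupOf.1 hx).1, fun hx => Subgroup.mem_subgroupOf.2 ⟨hx, x.2⟩⟩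

theorem mem_N_iff {hA : GHyp A} (x : ↥A.G1) :
    x ∈ (bnP hA).N ↔ x.1 ∈ D.monomialSubgroup F :=
  ⟨fun hx => (Subgroup.mem_subgroupOf.1 hx).1, fun hx => Subgroup.mem_subgroupOf.2 ⟨hx, x.2⟩⟩

omit [Fintype F] in
/-- All positive roots go negative. -/
theorem all_neg_of {σ : Perm (Fin D.nroots)} (hσ : σ ∈ hF.Wk Set.univ)
    (hnegS : ∀ (m : ℕ) (hm : m < D.rank), ((σ ⟨D.simple m, hF.simple_lt hm⟩ : Fin D.nroots) : ℕ) < R.N) :
    ∀ s : Fin D.nroots, (R.N ≤ (s : ℕ) ↔ ((σ s : Fin D.nroots) : ℕ) < R.N) := by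
  have hneg : ∀ s : Fin D.nroots, R.N ≤ (s : ℕ) → ((σ s : Fin D.nroots) : ℕ) < R.N := by
    intro r hr
    exact hF.neg_on_LQ (J := Set.univ) hσ (fun m hm _ => hnegS m hm) r r.2
      ⟨(hF.isPos_iff).2 ⟨r.2, hr⟩, (hF.inRootSub_iff).2 ⟨r.2, fun k _ hk => absurd (Set.mem_univ k) hk⟩⟩
  intro s
  constructor
  · exact hneg s
  · intro h1
    by_contra h2
    push Not at h2
    have h3 : R.N ≤ ((hF.negF s : Fin D.nroots) : ℕ) := hF.neg_ge_N h2
    have h4 := hneg _ h3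
    have h5 := hF.neg_comm hσ s
    rw [h5] at h4
    have h6 : R.N ≤ (D.neg ((σ s : Fin D.nroots) : ℕ)) := hF.neg_ge_N h1
    exact absurd h4 (by
      show ¬ (D.neg ((σ s : Fin D.nroots) : ℕ)) < R.N
      omega)

/-- A subgroup of the form `y U y⁻¹` meeting `U` trivially is conjugate to `V` under `U`. -/
theorem exists_conj_opp (hA : GHyp A) {y : ↥A.G1}
    (hy : ∀ u : ↥A.G1, u.1 ∈ D.posUnipotent F → (y * u * y⁻¹).1 ∈ D.posUnipotent F → u = 1) :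
    ∃ w : ↥A.G1, w.1 ∈ D.posUnipotent F ∧ ∀ x : ↥A.G1,
      (w * x * w⁻¹).1 ∈ D.negUnipotent F ↔ (y⁻¹ * x * y).1 ∈ D.posUnipotent F := by
  classical
  obtain ⟨n, hn, hy'⟩ := exists_mem_dc (P := bnP hA) y
  obtain ⟨b₁, hb₁, b₂, hb₂, rfl⟩ := mem_dc.1 hy'
  have hb₁' : b₁.1 ∈ D.borelSubgroup F := (mem_B_iff A _).1 hb₁
  have hb₂' : b₂.1 ∈ D.borelSubgroup F := (mem_B_iff A _).1 hb₂
  have hn' : n.1 ∈ D.monomialSubgroup F := (mem_N_iff A _).1 hn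
  let n₁ : ↥(D.monomialSubgroup F) := ⟨n.1, hn'⟩
  obtain ⟨u, hact⟩ := hF.rhoN_spec n₁
  have hnegS : ∀ (m : ℕ) (hm : m < D.rank), ((hF.rhoN F n₁ ⟨D.simple m, hF.simple_lt hm⟩ : Fin D.nroots) : ℕ) < R.N := by
    intro m hm
    by_contra hcon
    obtain ⟨xm, hxm, hsm, hnem⟩ := hA.hne m hm
    have h1 := conj_pos_of A n₁ n.2 hm (not_lt.1 hcon) hxm
    have hw : xm ∈ A.G1 := A.UL_fix m hm xm hxm hsm
    have hU : xm ∈ D.posUnipotent F := hF.UL_le_U _ hxm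
    obtain ⟨w₀, hw₀⟩ : ∃ w₀ : ↥A.G1, w₀.1 = xm := ⟨⟨_, hw⟩, rfl⟩
    have hu₀ : (b₂⁻¹ * w₀ * b₂).1 ∈ D.posUnipotent F := by
      have := conj_U_of_borel hF (Subgroup.inv_mem _ hb₂') hU
      simp only [Subgroup.coe_mul, Subgroup.coe_inv, hw₀]
      simpa using this
    have h2 := hy (b₂⁻¹ * w₀ * b₂) hu₀ (by
      have e : (((b₁ * n * b₂) * (b₂⁻¹ * w₀ * b₂) * (b₁ * n * b₂)⁻¹ : ↥A.G1) : GL D.Idx F) =
          b₁.1 * (n.1 * xm * n.1⁻¹) * b₁.1⁻¹ := by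
        simp only [Subgroup.coe_mul, Subgroup.coe_inv, hw₀]
        group
      rw [e]
      exact conj_U_of_borel hF hb₁' h1)
    have h3 : w₀ = 1 := by
      have e : w₀ = b₂ * (b₂⁻¹ * w₀ * b₂) * b₂⁻¹ := by group
      rw [e, h2]
      group
    apply hnem
    rw [← hw₀, h3]
    rfl
  have hiff := all_neg_of A (hF.rhoN_mem_Wk n₁) hnegS
  have hmapU := hF.map_conj_U_of_act hact hiff
  obtain ⟨w, hw, t, ht, hb₁e⟩ := A.borel_split hb₁' b₁.2
  refine ⟨⟨w, hw.2⟩⁻¹, Subgroup.inv_mem _ hw.1, ?_⟩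
  intro x
  have htN := hF.diagonal_le_normalizer_V (F := F) ht.1
  have key : ∀ g : GL D.Idx F, g ∈ D.negUnipotent F ↔ n.1⁻¹ * g * n.1 ∈ D.posUnipotent F := by
    intro g
    rw [← hmapU]
    constructor
    · rintro ⟨v, hv, rfl⟩
      have : n.1⁻¹ * (n.1 * v * n.1⁻¹) * n.1 = v := by group
      exact (congrArg (· ∈ D.posUnipotent F) this).mpr hv
    · intro h'
      refine ⟨_, h', ?_⟩
      show n.1 * (n.1⁻¹ * g * n.1) * n.1⁻¹ = g
      group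
  have hb₂inv := Subgroup.inv_mem _ hb₂'
  have e1 : ((b₁ * n * b₂)⁻¹ * x * (b₁ * n * b₂)).1 =
      b₂.1⁻¹ * (n.1⁻¹ * (b₁.1⁻¹ * x.1 * b₁.1) * n.1) * b₂.1 := by
    simp only [Subgroup.coe_mul, Subgroup.coe_inv]
    group
  have e2 : (((⟨w, hw.2⟩ : ↥A.G1)⁻¹ * x * ((⟨w, hw.2⟩ : ↥A.G1)⁻¹)⁻¹).1) = w⁻¹ * x.1 * w := by
    simp only [Subgroup.coe_mul, Subgroup.coe_inv, inv_inv]
  rw [e1, e2]
  have hconjb : ∀ g : GL D.Idx F, b₂.1⁻¹ * g * b₂.1 ∈ D.posUnipotent F ↔ g ∈ D.posUnipotent F := by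
    intro g
    constructor
    · intro h
      have := conj_U_of_borel hF hb₂' h
      simpa [mul_assoc] using this
    · intro h
      have := conj_U_of_borel hF hb₂inv h
      simpa using this
  rw [hconjb, ← key]
  have e3 : b₁.1⁻¹ * x.1 * b₁.1 = t⁻¹ * (w⁻¹ * x.1 * w) * t := by
    rw [hb₁e]
    group
  rw [e3]
  have htinv := Subgroup.inv_mem _ htN
  have := Subgroup.mem_set_normalizer_iff.1 htinv (w⁻¹ * x.1 * w)
  rw [inv_inv] at this
  exact this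

/-- `B₁` is the normaliser of `U₁`. -/
theorem mem_borel_iff_conj (hA : GHyp A) (x : ↥A.G1) :
    x.1 ∈ D.borelSubgroup F ↔ ∀ u : ↥A.G1, u.1 ∈ D.posUnipotent F → (x⁻¹ * u * x).1 ∈ D.posUnipotent F := by
  constructor
  · intro hx u hu
    have := conj_U_of_borel hF (Subgroup.inv_mem _ hx) hu
    simpa using this
  · intro hc
    obtain ⟨n, hn, hy'⟩ := exists_mem_dc (P := bnP hA) x
    obtain ⟨b₁, hb₁, b₂, hb₂, rfl⟩ := mem_dc.1 hy'
    have hb₁' : b₁.1 ∈ D.borelSubgroup F := (mem_B_iff A _).1 hb₁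
    have hb₂' : b₂.1 ∈ D.borelSubgroup F := (mem_B_iff A _).1 hb₂
    have hn' : n.1 ∈ D.monomialSubgroup F := (mem_N_iff A _).1 hn
    let n₁ : ↥(D.monomialSubgroup F) := ⟨n.1, hn'⟩
    have key : ∀ y : ↥A.G1, y.1 ∈ D.posUnipotent F → n.1⁻¹ * y.1 * n.1 ∈ D.posUnipotent F := by
      intro y hy
      have h1 := hc (b₁ * y * b₁⁻¹) (conj_U_of_borel hF hb₁' hy)
      have e : (((b₁ * n * b₂)⁻¹ * (b₁ * y * b₁⁻¹) * (b₁ * n * b₂) : ↥A.G1) : GL D.Idx F) =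
          b₂.1⁻¹ * (n.1⁻¹ * y.1 * n.1) * b₂.1 := by
        simp only [Subgroup.coe_mul, Subgroup.coe_inv]
        group
      rw [e] at h1
      have h2 := conj_U_of_borel hF hb₂' h1
      simpa [mul_assoc] using h2
    have hpos : ∀ (m : ℕ) (hm : m < D.rank), m ∈ (Set.univ : Set ℕ) →
        R.N ≤ ((hF.rhoN F n₁⁻¹ ⟨D.simple m, hF.simple_lt hm⟩ : Fin D.nroots) : ℕ) := by
      intro m hm _
      by_contra hcon
      obtain ⟨xm, hxm, hsm, hnem⟩ := hA.hne m hm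
      have hw : xm ∈ A.G1 := A.UL_fix m hm xm hxm hsm
      have h1 := key ⟨_, hw⟩ (hF.UL_le_U _ hxm)
      have h2 := conj_neg_of A n₁⁻¹ (Subgroup.inv_mem _ n.2) hm (not_le.1 hcon) hxm (by
        have e : ((n₁⁻¹ : ↥(D.monomialSubgroup F)) : GL D.Idx F) = n.1⁻¹ := rfl
        rw [e, inv_inv]
        exact hF.c.posUnipotent_le_borel h1)
      exact hnem h2
    have h1 := hF.Wk_pos_eq_one (J := Set.univ) (hF.rhoN_mem_Wk n₁⁻¹) hpos
    have h2 := hF.mem_diagonal_of_rhoN_eq_one h1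
    have h3 : n.1 ∈ D.borelSubgroup F := by
      have := Subgroup.inv_mem _ (hF.c.diagonal_le_borel h2)
      simpa using this
    show b₁.1 * n.1 * b₂.1 ∈ _
    exact Subgroup.mul_mem _ (Subgroup.mul_mem _ hb₁' h3) hb₂'

/-- The longest element. -/
theorem exists_opp : ∃ n₀ : ↥(D.monomialSubgroup F), n₀.1 ∈ A.G1 ∧ (∃ u₀, hF.RootAct n₀.1 (hF.rhoN F n₀) u₀) ∧
    (∀ s : Fin D.nroots, (R.N ≤ (s : ℕ) ↔ ((hF.rhoN F n₀ s : Fin D.nroots) : ℕ) < R.N)) ∧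
    (∀ x : GL D.Idx F, x ∈ D.posUnipotent F ↔ n₀.1 * x * n₀.1⁻¹ ∈ D.negUnipotent F) ∧
    (∀ x : GL D.Idx F, x ∈ D.negUnipotent F ↔ n₀.1 * x * n₀.1⁻¹ ∈ D.posUnipotent F) := by
  obtain ⟨n₀, hn₀, hneg⟩ := A.exists_longest
  have hiff := all_neg_of A (hF.rhoN_mem_Wk n₀) (fun m hm => hneg _ (hF.simple_ge hm))
  obtain ⟨u₀, hact⟩ := hF.rhoN_spec n₀
  refine ⟨n₀, hn₀, ⟨u₀, hact⟩, hiff, ?_, ?_⟩
  · have hm₁ := hF.map_conj_U_of_act hact hiff
    intro x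
    constructor
    · intro h
      rw [← hm₁]
      exact ⟨x, h, rfl⟩
    · intro h
      rw [← hm₁] at h
      obtain ⟨u, hu, e⟩ := h
      have : u = x := by
        have e' : n₀.1 * u * n₀.1⁻¹ = n₀.1 * x * n₀.1⁻¹ := e
        simpa using e'
      rwa [← this]
  · have hm₂ : (D.posUnipotent F).map (MulAut.conj n₀.1⁻¹).toMonoidHom = D.negUnipotent F := by
      refine hF.map_conj_U_of_act hact.inv ?_
      intro s
      have h1 := hiff ((hF.rhoN F n₀)⁻¹ s)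
      have h0 : (hF.rhoN F n₀) ((hF.rhoN F n₀)⁻¹ s) = s := by simp
      rw [h0] at h1
      have h2 := hF.two
      have hs := s.2
      have hs' := ((hF.rhoN F n₀)⁻¹ s).2
      omega
    intro x
    constructor
    · intro h
      rw [← hm₂] at h
      obtain ⟨u, hu, e⟩ := h
      have e' : n₀.1⁻¹ * u * n₀.1⁻¹⁻¹ = x := e
      rw [← e']
      simpa [mul_assoc] using hu
    · intro h
      rw [← hm₂]
      refine ⟨_, h, ?_⟩
      show n₀.1⁻¹ * (n₀.1 * x * n₀.1⁻¹) * n₀.1⁻¹⁻¹ = x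
      group

/-- `H₁`, through normalisers. -/
theorem mem_diag_iff (hA : GHyp A) (x : ↥A.G1) :
    x.1 ∈ D.diagonalSubgroup F ↔
      (∀ u : ↥A.G1, u.1 ∈ D.posUnipotent F → (x⁻¹ * u * x).1 ∈ D.posUnipotent F) ∧
      (∀ v : ↥A.G1, v.1 ∈ D.negUnipotent F → (x⁻¹ * v * x).1 ∈ D.negUnipotent F) := by
  constructor
  · intro hx
    constructor
    · intro u hu
      have := (Subgroup.mem_normalizer_iff.1 (hF.diagonal_le_normalizer_U (F := F) (Subgroup.inv_mem _ hx)) u.1).1 hu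
      simpa using this
    · intro u hu
      have := (Subgroup.mem_normalizer_iff.1 (hF.diagonal_le_normalizer_V (F := F) (Subgroup.inv_mem _ hx)) u.1).1 hu
      simpa using this
  · rintro ⟨h1, h2⟩
    obtain ⟨n₀, hn₀, ⟨u₀, hact⟩, hiff, hU, hV⟩ := exists_opp A
    have hx : x.1 ∈ D.borelSubgroup F := (mem_borel_iff_conj A hA x).2 h1
    let nG : ↥A.G1 := ⟨n₀.1, hn₀⟩
    have hx' : (nG * x * nG⁻¹).1 ∈ D.borelSubgroup F := by
      rw [mem_borel_iff_conj A hA]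
      intro u hu
      have e1 : ((nG * x * nG⁻¹)⁻¹ * u * (nG * x * nG⁻¹)).1 = n₀.1 * (x⁻¹ * (nG⁻¹ * u * nG) * x).1 * n₀.1⁻¹ := by
        simp only [Subgroup.coe_mul, Subgroup.coe_inv, nG]
        group
      rw [e1, ← hV]
      apply h2
      rw [hV]
      show n₀.1 * (n₀.1⁻¹ * u.1 * n₀.1) * n₀.1⁻¹ ∈ _
      simpa [mul_assoc] using hu
    exact hF.borel_inf_conj hact n₀.2 hiff hx hx'

/-- Normalisation: every automorphism can be corrected by an inner automorphism. -/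
theorem exists_nrm (hA : GHyp A) {p : ℕ} [Fact p.Prime]
    (P : Sylow p ↥A.G1) (hPmem : ∀ u : ↥A.G1, u ∈ (P : Subgroup ↥A.G1) ↔ u.1 ∈ D.posUnipotent F)
    (θ : ↥A.G1 ≃* ↥A.G1) : ∃ z : ↥A.G1, Nrm A (θ.trans (MulAut.conj z)) := by
  classical
  haveI : Finite ↥A.G1 := inferInstance
  -- first correction
  obtain ⟨x, hx⟩ := exists_conj_of_sylow P θ
  have h1 : ∀ g : ↥A.G1, (x⁻¹ * θ g * x).1 ∈ D.posUnipotent F ↔ g.1 ∈ D.posUnipotent F := by
    intro g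
    rw [← hPmem, ← hPmem]
    constructor
    · intro h
      obtain ⟨u, hu, e⟩ := (hx (θ g)).2 ⟨_, h, by group⟩
      rwa [← θ.injective e]
    · intro h
      obtain ⟨u, hu, e⟩ := (hx (θ g)).1 ⟨g, h, rfl⟩
      rw [← e]
      convert hu using 1
      group
  let θ₁ : ↥A.G1 ≃* ↥A.G1 := θ.trans (MulAut.conj x⁻¹)
  have hθ₁ : ∀ g, θ₁ g = x⁻¹ * θ g * x := by
    intro g
    show MulAut.conj x⁻¹ (θ g) = _
    simp [MulAut.conj_apply]
  have h1' : ∀ g : ↥A.G1, (θ₁ g).1 ∈ D.posUnipotent F ↔ g.1 ∈ D.posUnipotent F := by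
    intro g
    rw [hθ₁]
    exact h1 g
  -- the opposite
  obtain ⟨n, hnG, -, -, hU, hV⟩ := exists_opp A
  let nG : ↥A.G1 := ⟨n.1, hnG⟩
  have hVmem : ∀ v : ↥A.G1, v.1 ∈ D.negUnipotent F ↔ nG⁻¹ * v * nG ∈ (P : Subgroup ↥A.G1) := by
    intro v
    rw [hPmem, hU]
    have e : (nG⁻¹ * v * nG).1 = n.1⁻¹ * v.1 * n.1 := rfl
    rw [e]
    have e2 : n.1 * (n.1⁻¹ * v.1 * n.1) * n.1⁻¹ = v.1 := by group
    rw [e2]
  obtain ⟨y, hy⟩ := exists_conj_of_sylow P ((MulAut.conj nG).trans θ₁)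
  have hV' : ∀ g : ↥A.G1, g.1 ∈ D.negUnipotent F ↔ (y⁻¹ * θ₁ g * y).1 ∈ D.posUnipotent F := by
    intro g
    rw [← hPmem, hVmem]
    constructor
    · intro h
      obtain ⟨u, hu, e⟩ := (hy (θ₁ g)).1 ⟨nG⁻¹ * g * nG, h, by
        show θ₁ (MulAut.conj nG (nG⁻¹ * g * nG)) = θ₁ g
        congr 1
        simp [MulAut.conj_apply]
        group⟩
      rw [← e]
      convert hu using 1
      group
    · intro h
      obtain ⟨u, hu, e⟩ := (hy (θ₁ g)).2 ⟨_, h, by group⟩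
      have e' : θ₁ (MulAut.conj nG u) = θ₁ g := e
      have e2 := θ₁.injective e'
      rw [← e2]
      convert hu using 1
      simp [MulAut.conj_apply]
      group
  obtain ⟨w, hw, hwe⟩ := exists_conj_opp A hA (y := y) (by
    intro u hu hu'
    obtain ⟨g, hg⟩ := θ₁.surjective (y * u * y⁻¹)
    have hgU : g.1 ∈ D.posUnipotent F := (h1' g).1 (by rw [hg]; exact hu')
    have hgV : g.1 ∈ D.negUnipotent F := by
      rw [hV', hg]
      convert hu using 2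
      group
    have h3 : g.1 ∈ D.borelSubgroup F ⊓ D.negUnipotent F := ⟨hF.c.posUnipotent_le_borel hgU, hgV⟩
    rw [hF.B_inf_V, Subgroup.mem_bot] at h3
    have h4 : g = 1 := Subtype.ext h3
    rw [h4, map_one] at hg
    have h5 : y * u * y⁻¹ = 1 := hg.symm
    have h6 : u = y⁻¹ * (y * u * y⁻¹) * y := by group
    rw [h6, h5]
    group)
  refine ⟨w * x⁻¹, ?_, ?_⟩
  · intro g
    have e : (θ.trans (MulAut.conj (w * x⁻¹))) g = w * θ₁ g * w⁻¹ := by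
      rw [hθ₁]
      show MulAut.conj (w * x⁻¹) (θ g) = _
      simp only [MulAut.conj_apply]
      group
    rw [e, ← h1' g]
    constructor
    · intro h
      have := (D.posUnipotent F).mul_mem ((D.posUnipotent F).mul_mem ((D.posUnipotent F).inv_mem hw) h) hw
      convert this using 1
      simp only [Subgroup.coe_mul, Subgroup.coe_inv]
      group
    · intro h
      have := (D.posUnipotent F).mul_mem ((D.posUnipotent F).mul_mem hw h) ((D.posUnipotent F).inv_mem hw)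
      exact this
  · intro g
    have e : (θ.trans (MulAut.conj (w * x⁻¹))) g = w * θ₁ g * w⁻¹ := by
      rw [hθ₁]
      show MulAut.conj (w * x⁻¹) (θ g) = _
      simp only [MulAut.conj_apply]
      group
    rw [e, hwe, hV']

/-- `U`-preserving automorphisms preserve `B`. -/
theorem map_borel (hA : GHyp A) {θ : ↥A.G1 ≃* ↥A.G1}
    (hθ : ∀ x : ↥A.G1, (θ x).1 ∈ D.posUnipotent F ↔ x.1 ∈ D.posUnipotent F) (x : ↥A.G1) :
    (θ x).1 ∈ D.borelSubgroup F ↔ x.1 ∈ D.borelSubgroup F := by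
  rw [mem_borel_iff_conj A hA, mem_borel_iff_conj A hA]
  constructor
  · intro h u hu
    have := h (θ u) ((hθ u).2 hu)
    rw [← hθ]
    simpa [map_mul, map_inv] using this
  · intro h u hu
    obtain ⟨u', rfl⟩ := θ.surjective u
    have := h u' ((hθ u').1 hu)
    rw [← hθ] at this
    simpa [map_mul, map_inv] using this

theorem nCl_not_mem_B {i : ℕ} (hi : i < D.rank) : (A.nC i).1 ∉ D.borelSubgroup F := by
  intro hb
  have h1 : ((A.nC i : ↥(D.monomialSubgroup F)) : GL D.Idx F) ∈ D.diagonalSubgroup F := by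
    rw [← hF.B_inf_N]
    exact ⟨hb, (A.nC i).2⟩
  have h2 := hF.rhoN_of_mem_diagonal _ h1
  have h3 := A.nC_neg i hi i hi (A.self_mem i hi)
  rw [h2] at h3
  exact absurd (hF.simple_ge hi) (not_le.2 h3)

theorem nCl_mem_N {i : ℕ} (hi : i < D.rank) : (A.nC i).1 ∈ D.monomialSubgroup F := by
  exact (A.nC i).2

/-- No element of `V` lies in `B n_i`. -/
theorem V_ne_B_mul {i : ℕ} (hi : i < D.rank) {v b : GL D.Idx F} (hv : v ∈ D.negUnipotent F)
    (hb : b ∈ D.borelSubgroup F) : v ≠ b * (A.nC i).1 := by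
  intro e
  obtain ⟨n₀, hn₀, -, -, hU, hV⟩ := exists_opp A
  have hu : n₀.1⁻¹ * v * n₀.1 ∈ D.posUnipotent F := by
    rw [hU]
    have e2 : n₀.1 * (n₀.1⁻¹ * v * n₀.1) * n₀.1⁻¹ = v := by group
    rw [e2]
    exact hv
  set u := n₀.1⁻¹ * v * n₀.1 with hu'
  have h1 : n₀.1 * u ∈ cellS D F n₀.1 := ⟨1, Subgroup.one_mem _, u, hF.c.posUnipotent_le_borel hu, by simp⟩
  have h2 : n₀.1 * u ∈ cellS D F ((A.nC i).1 * n₀.1) := by
    refine ⟨b, hb, 1, Subgroup.one_mem _, ?_⟩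
    have : n₀.1 * u = v * n₀.1 := by
      rw [hu']
      group
    rw [this, e]
    group
  have hmN : (A.nC i).1 * n₀.1 ∈ D.monomialSubgroup F := Subgroup.mul_mem _ (nCl_mem_N A hi) n₀.2
  have h3 := hF.cell_disjoint n₀.2 hmN h1 h2
  have h4 : n₀.1⁻¹ * ((A.nC i).1 * n₀.1) ∈ D.diagonalSubgroup F := by
    rw [← hF.B_inf_N]
    exact ⟨h3, Subgroup.mul_mem _ (Subgroup.inv_mem _ n₀.2) hmN⟩
  have h5 := (Subgroup.mem_set_normalizer_iff.1 (hF.monomial_le_normalizer n₀.2) _).1 h4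
  have h6 : n₀.1 * (n₀.1⁻¹ * ((A.nC i).1 * n₀.1)) * n₀.1⁻¹ = (A.nC i).1 := by group
  rw [h6] at h5
  exact nCl_not_mem_B A hi (hF.c.diagonal_le_borel h5)

/-- The element of `S` of a class. -/
noncomputable def sE {i : ℕ} (hi : i < D.rank) : ↥A.G1 := ⟨(A.nC i).1, A.nC_mem i hi⟩

theorem sE_mem_S (hA : GHyp A) {i : ℕ} (hi : i < D.rank) :
    sE A hi ∈ (bnP hA).S :=
  ⟨i, hi, rfl⟩

theorem mem_parabolic_iff_cell (hA : GHyp A) {i : ℕ} (hi : i < D.rank) (g : ↥A.G1) :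
    g ∈ (bnP hA).parabolic {sE A hi} ↔ g.1 ∈ D.borelSubgroup F ∨ g.1 ∈ cellS D F ((A.nC i).1) := by
  have hcoe := coe_parabolic_singleton (P := bnP hA) (sE_mem_S A hA hi)
  have h1 : g ∈ (bnP hA).parabolic {sE A hi} ↔ g ∈ ((bnP hA).B : Set ↥A.G1) ∪ dc (bnP hA) (sE A hi) := by
    rw [← hcoe]
    rfl
  rw [h1]
  apply or_congr
  · exact mem_B_iff A g
  · rw [mem_dc]
    constructor
    · rintro ⟨b, hb, b', hb', e⟩
      exact ⟨b.1, (mem_B_iff A b).1 hb, b'.1, (mem_B_iff A b').1 hb', congrArg Subtype.val e⟩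
    · intro hc
      have hc' : g.1 ∈ cellS D F ((A.nC i : ↥(D.monomialSubgroup F)) : GL D.Idx F) := by
        exact hc
      obtain ⟨b, hb, hbG, u, hu, huG, e⟩ := A.cell_decomp g.2 (A.nC_mem i hi) hc'
      refine ⟨⟨b, hbG⟩, (mem_B_iff A _).2 hb, ⟨u, huG⟩, (mem_B_iff A _).2 (hF.c.posUnipotent_le_borel hu), Subtype.ext e⟩


end Cfsg.Agent.Lib.Chev.TwGen
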